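import Cfsg.Agent.H15.Ree7
import Cfsg.Prelude.Def_KGroupFacts

/-! Small Ree groups: generation by two elements, automorphisms. -/

set_option autoImplicit false

namespace Cfsg.Agent.H15.Ree

open Matrix MulAction

theorem ringHom_comm {F : Type*} [Field F] [Finite F] (φ ψ : F →+* F) (x : F) : φ (ψ x) = ψ (φ x) := by
  by_cases hx : x = 0
  · simp [hx]
  obtain ⟨m, hm⟩ := (Units.map φ.toMonoidHom).map_cyclic
  have := fun y => congrArg Units.val (hm y)
  simpa using (this (Units.map ψ.toMonoidHom (Units.mk0 x hx))).trans (by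
    simpa using (congrArg ψ (this (Units.mk0 x hx))).symm)

namespace Model

variable {G : Type*} [Group G] {F : Type*} [Field F] [CharP F 3] (M : Model G F)

theorem exists_cube [Finite F] {c : F} (hc : c ≠ 0) : ∃ k : Fˣ, (k : F) ^ 2 * M.σ k = c := by
  let f : Fˣ →* Fˣ := (powMonoidHom 2) * Units.map M.σ.toMonoidHom
  have hf : Function.Injective f := (injective_iff_map_eq_one f).2 fun a h =>
    Units.ext (M.eq_one_of (by simpa [f] using congrArg Units.val h))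
  obtain ⟨a, ha⟩ := Finite.injective_iff_surjective.1 hf (Units.mk0 c hc)
  exact ⟨a, by simpa [f] using congrArg Units.val ha⟩

theorem exists_norm [Finite F] {c : F} (hc : c ≠ 0) : ∃ k : Fˣ, k * M.σ k = c ∨ k * M.σ k = -c := by
  obtain ⟨l, hl⟩ := M.sq_or_neg_sq (Units.mk0 c hc)
  have h1 := l.ne_zero
  have h2 := M.σ_ne h1
  refine ⟨Units.mk0 (M.σ l / l) (div_ne_zero h2 h1), ?_⟩
  have : M.σ l / l * M.σ (M.σ l / l) = l * l := by rw [map_div₀, M.σσ]; field_simp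
  rcases hl with h | h <;> simp [-map_div₀, this, show c = _ from congrArg Units.val h]

theorem σ_ne_self {k : Fˣ} (h1 : k ≠ 1) (h2 : k ≠ -1) : M.σ k ≠ k := fun h => by
  have h3 := M.σσ k
  have h4 := k.ne_zero
  have h5 : (k : F) ≠ 1 := fun e => h1 (Units.ext e)
  have h6 : (k : F) ≠ -1 := fun e => h2 (Units.ext e)
  rw [h, h] at h3
  grind

theorem Q_le_of [Finite F] (hF : 3 < Nat.card F) {K : Subgroup G} (hD : ∀ a, M.D a ∈ K) {x y z : F} (hx : x ≠ 0)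
    (h : M.S x y z ∈ K) : M.Q ≤ K := by
  have hc : ∀ (k : Fˣ) {a b c}, M.S a b c ∈ K → M.S (k * a) (k * M.σ k * b) (k ^ 2 * M.σ k * c) ∈ K := fun k _ _ _ h =>
    M.D_conj_S k _ _ _ ▸ mul_mem (mul_mem (hD k) h) (inv_mem (hD k))
  have h1 := M.σ_ne hx
  have hZ : ∀ c, M.S 0 0 c ∈ K := fun c => by
    by_cases h0 : c = 0
    · rw [h0, M.S_zero]; exact one_mem _
    have h2 : -(x ^ 2 * M.σ x) ≠ 0 := by simp [hx]
    obtain ⟨k, hk⟩ := M.exists_cube (div_ne_zero h0 h2)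
    have h3 := pow_mem h 3
    rw [S_cube] at h3
    simpa only [hk, mul_zero, div_mul_cancel₀ _ h2] using hc k h3
  have hZ' : ∀ {a b c} c', M.S a b c ∈ K → M.S a b c' ∈ K := fun {a b c} c' h => by
    simpa [S_mul] using mul_mem h (hZ (c' - c))
  obtain ⟨k, k1, k2⟩ := exists_unit hF
  have h2 := M.σ_ne_self k1 k2
  have h3 : M.S 0 ((k - M.σ k) * (x * M.σ x)) 0 ∈ K := by
    have := mul_mem (mul_mem h (hc k h)) (inv_mem (mul_mem (hc k h) h))
    rw [S_mul, S_mul, S_inv, S_mul] at this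
    convert hZ' 0 this using 2 <;> (try simp only [map_neg, map_add, map_mul]) <;> ring
  have hY : ∀ b, M.S 0 b 0 ∈ K := fun b => by
    by_cases h0 : b = 0
    · rw [h0, M.S_zero]; exact one_mem _
    have h4 : k - M.σ k ≠ 0 := sub_ne_zero.2 h2.symm
    obtain ⟨l, hl | hl⟩ := M.exists_norm (c := b / ((k - M.σ k) * (x * M.σ x))) (by positivity)
    · simpa [hl, hx, h4] using hc l h3
    · simpa [hl, hx, h4, S_inv] using inv_mem (hc l h3)
  rintro _ ⟨a, b, c, rfl⟩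
  by_cases ha : a = 0
  · exact ha ▸ hZ' c (hY b)
  · have := mul_mem (hc (Units.mk0 (a / x) (div_ne_zero ha hx)) h) (hY (b - a / x * M.σ (a / x) * y))
    rw [S_mul] at this
    convert hZ' c this using 2 <;> simp [hx]

theorem eq_top_of {K : Subgroup G} (hQ : M.Q ≤ K) (hW : M.W ∈ K) (hD : ∀ a, M.D a ∈ K) : K = ⊤ := by
  have h := fun a b c => hQ (M.S_mem a b c)
  refine eq_top_iff.2 fun g _ => ?_
  rcases M.bruhat g with ⟨a, b, c, k, rfl⟩ | ⟨a, b, c, k, x, y, z, rfl⟩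
  exacts [mul_mem (h _ _ _) (hD _), mul_mem (mul_mem (mul_mem (h _ _ _) (hD _)) hW) (h _ _ _)]

include M in
theorem two_gen [Finite F] (hF : 3 < Nat.card F) : ∃ a b : G, Subgroup.closure ({a, b} : Set G) = ⊤ := by
  obtain ⟨k, hk⟩ := IsCyclic.exists_generator (α := Fˣ)
  refine ⟨M.D k, M.S 1 0 0 * M.W, ?_⟩
  set K := Subgroup.closure ({M.D k, M.S 1 0 0 * M.W} : Set G)
  have h1 : M.S 1 0 0 * M.W ∈ K := Subgroup.subset_closure (by simp)
  have hD : ∀ a, M.D a ∈ K := fun a => by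
    obtain ⟨n, rfl⟩ := hk a
    rw [map_zpow]; exact zpow_mem (Subgroup.subset_closure (by simp)) _
  have h2 := mul_mem (mul_mem (mul_mem h1 (hD (-1)⁻¹)) (inv_mem h1)) (inv_mem (hD (-1)))
  rw [show M.S 1 0 0 * M.W * M.D (-1)⁻¹ * (M.S 1 0 0 * M.W)⁻¹ * (M.D (-1))⁻¹ =
    M.S 1 0 0 * ((M.W * M.D (-1)⁻¹ * M.W) * (M.S 1 0 0)⁻¹ * (M.D (-1))⁻¹) by rw [_root_.mul_inv_rev, W_inv]; group,
    W_D_W, inv_inv, S_inv, D_conj_S, S_mul] at h2
  have hQ := M.Q_le_of hF hD (by simp; grind) h2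
  exact M.eq_top_of hQ (by simpa using mul_mem (inv_mem (hQ (M.S_mem 1 0 0))) h1) hD

section
variable {φ : F →+* F} (hφ : ∀ x, φ (M.σ x) = M.σ (φ x))
include hφ

theorem map_S (a b c : F) : (M.mat (M.S a b c)).map φ = M.mat (M.S (φ a) (φ b) (φ c)) := by
  rw [M.mat_S, M.mat_S]
  ext i j
  fin_cases i <;> fin_cases j <;> simp [Sm, hφ]

theorem map_D (a : Fˣ) : (M.mat (M.D a)).map φ = M.mat (M.D (Units.map φ.toMonoidHom a)) := by
  rw [M.mat_D, M.mat_D, Dm, Dm, diagonal_map (map_zero _)]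
  congr 1
  ext i
  fin_cases i <;> simp [hφ]

omit hφ in
theorem map_W : (M.mat M.W).map φ = M.mat M.W := by
  rw [M.mat_W]
  ext i j
  simp [Wm, apply_ite φ]

theorem exists_map (g : G) : ∃ h, M.mat h = (M.mat g).map φ := by
  rcases M.bruhat g with ⟨a, b, c, k, rfl⟩ | ⟨a, b, c, k, x, y, z, rfl⟩
  · exact ⟨M.S _ _ _ * M.D _, by simp only [map_mul, Matrix.map_mul]; rw [M.map_S hφ, M.map_D hφ]⟩
  · exact ⟨M.S _ _ _ * M.D _ * M.W * M.S _ _ _, by
      simp only [map_mul, Matrix.map_mul]; rw [M.map_S hφ, M.map_S hφ, M.map_D hφ, M.map_W]⟩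

/-- The endomorphism induced by a field endomorphism. -/
noncomputable def ι : G →* G := MonoidHom.mk' (fun g => (M.exists_map hφ g).choose) fun a b => M.inj (by
  rw [map_mul M.mat (Exists.choose _), (M.exists_map hφ _).choose_spec, (M.exists_map hφ _).choose_spec,
    (M.exists_map hφ _).choose_spec, map_mul, Matrix.map_mul])

theorem mat_ι (g : G) : M.mat (M.ι hφ g) = (M.mat g).map φ := (M.exists_map hφ g).choose_spec

theorem ι_S (a b c : F) : M.ι hφ (M.S a b c) = M.S (φ a) (φ b) (φ c) := M.inj (by rw [mat_ι, M.map_S hφ])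

theorem ι_D (a : Fˣ) : M.ι hφ (M.D a) = M.D (Units.map φ.toMonoidHom a) := M.inj (by rw [mat_ι, M.map_D hφ])

theorem ι_W : M.ι hφ M.W = M.W := M.inj (by rw [mat_ι, M.map_W])

theorem ι_inj : Function.Injective (M.ι hφ) := fun a b h => M.inj (Matrix.map_injective φ.injective (by
  simp only [← M.mat_ι hφ, h]))

end

theorem exists_conj_D {g : G} (hg : g ∈ M.B) (h2 : g ^ 2 ∉ M.Q) :
    ∃ x ∈ M.Q, ∃ a, a ≠ 1 ∧ a ≠ -1 ∧ x * g * x⁻¹ = M.D a := by
  obtain ⟨_, ⟨x, y, z, rfl⟩, k, rfl⟩ := hg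
  have h0 : (k : F) ^ 2 ≠ 1 := fun e => by
    obtain ⟨v, hv, e'⟩ := M.QD_pow (M.S_mem x y z) k 2
    exact h2 (by rwa [e', show k ^ 2 = 1 from Units.ext e, map_one, mul_one])
  have h1 : 1 - (k : F) ≠ 0 := fun e => h0 (by grind)
  have h3 : 1 - k * M.σ k ≠ 0 := fun e => h0 (M.sq_eq_one_of (by grind))
  have h4 : 1 - k ^ 2 * M.σ k ≠ 0 := fun e => h1 (by rw [M.eq_one_of (k := k) (by grind), sub_self])
  refine ⟨_, inv_mem (M.S_mem (x / (1 - k)) ((y - x * M.σ (k * (x / (1 - k)))) / (1 - k * M.σ k))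
    ((z - k * (x / (1 - k)) * y + x * (k * (x / (1 - k))) * M.σ (k * (x / (1 - k))) - x ^ 2 * M.σ (k * (x / (1 - k)))) /
      (1 - k ^ 2 * M.σ k))), k, by rintro rfl; simp at h0, by rintro rfl; simp at h0, ?_⟩
  rw [inv_inv, mul_assoc, inv_mul_eq_iff_eq_mul, mul_assoc, D_mul_S, ← mul_assoc, S_mul, mul_left_inj, S_inj]
  generalize M.σ (k * (x / (1 - k))) = t
  refine ⟨?_, ?_, ?_⟩ <;> field_simp <;> ring

theorem eq_id [Finite F] (hF : 3 < Nat.card F) {j : G →* G} (hQ : ∀ x ∈ M.Q, j x ∈ M.Q) (hD : ∀ a, j (M.D a) = M.D a)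
    {b c : F} (hS : j (M.S 1 0 0) = M.S 1 b c) (g : G) : j g = g := by
  have h1 : ∀ k : Fˣ, j (M.S k 0 0) = M.S k (k * M.σ k * b) (k ^ 2 * M.σ k * c) := fun k => by
    have := congrArg j (M.D_conj_S k 1 0 0)
    rw [map_mul, map_mul, map_inv, hD, hS, D_conj_S] at this
    simpa using this.symm
  have hZ : ∀ z, j (M.S 0 0 z) = M.S 0 0 z := fun z => by
    by_cases h0 : z = 0
    · simp [h0, M.S_zero]
    obtain ⟨k, hk⟩ := M.exists_cube (neg_ne_zero.2 h0)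
    have := congrArg j (M.S_cube k 0 0)
    rw [map_pow, h1, S_cube] at this
    simpa [hk] using this.symm
  have hY : ∀ y, j (M.S 0 y 0) = M.S 0 y 0 := fun y => by
    obtain ⟨u, v, w, e⟩ := hQ _ (M.S_mem 0 y 0)
    have h2 := congrArg j (M.h0_mul_S 0 y 0)
    rw [map_mul, map_mul, neg_zero, e, h0, hD, ← h0, h0_mul_S, mul_left_inj, S_inj] at h2
    have h3 : M.S 1 0 0 * M.S 0 y 0 = M.S 0 y 0 * M.S 1 0 0 * M.S 0 0 y := by simp [S_mul]
    replace h3 := congrArg j h3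
    rw [map_mul, map_mul, map_mul, hS, e, hZ, show u = 0 by grind, S_mul, S_mul, S_mul, S_inj] at h3
    rw [e, S_inj]; grind
  have h2 : ∀ k l : Fˣ, j (M.S (k + l) 0 0) = M.S (k + l) ((k * M.σ k + l * M.σ l) * b)
      ((k ^ 2 * M.σ k + l ^ 2 * M.σ l) * c - l * (k * M.σ k) * b) := fun k l => by
    have h3 : M.S (k + l) 0 0 = M.S k 0 0 * M.S l 0 0 * M.S 0 (k * M.σ l) 0 * M.S 0 0 ((k - l) * k * M.σ l) := by
      simp only [S_mul, S_inj, map_zero]; grind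
    rw [h3, map_mul, map_mul, map_mul, h1, h1, hY, hZ]
    simp only [S_mul, S_inj, map_zero]; grind
  have hb : b = 0 := by
    have := h2 1 (-1)
    simp [M.S_zero, eq_comm (a := (1 : G)), S_eq_one] at this
    grind
  subst hb
  have hc : c = 0 := by
    obtain ⟨k, k1, k2⟩ := exists_unit hF
    have h3 := M.σ_ne_self k1 k2
    have h4 := (h2 k 1).symm.trans (h1 (Units.mk0 (k + 1) fun e => k2 (Units.ext (eq_neg_of_add_eq_zero_left e))))
    have h5 := (h2 k (-1)).symm.trans (h1 (Units.mk0 (k + -1) fun e => k1 (Units.ext (by simpa [add_neg_eq_zero] using e))))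
    simp only [S_inj, Units.val_mk0, map_add, map_neg, map_one, Units.val_neg, Units.val_one] at h4 h5
    grind
  subst hc
  have hQ' : M.Q ≤ j.eqLocus (MonoidHom.id G) := M.Q_le_of hF hD one_ne_zero hS
  refine (M.eq_top_of hQ' ?_ hD).ge (Subgroup.mem_top g)
  obtain ⟨k, k1, k2⟩ := exists_unit hF
  have h3 : M.D k⁻¹ = j M.W * M.D k * (j M.W)⁻¹ := by rw [← hD k, ← map_inv, ← map_mul, ← map_mul, W_inv, W_D_W, hD]
  rcases M.norm_D k1 k2 h3 with ⟨d, e⟩ | ⟨d, e⟩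
  · rw [e, D_comm, mul_inv_cancel_right, map_inv, inv_eq_iff_mul_eq_one] at h3
    exact absurd h3 (M.D_sq_ne.2 ⟨k1, k2⟩)
  rcases M.bruhat (M.W * M.S 1 0 0 * M.W) with ⟨u, v, w, l, h4⟩ | ⟨u, v, w, l, x, y, z, h4⟩
  · have := M.entry_SD u v w l
    simp [← h4, -map_mul, entry_WSW, N] at this
  have h5 := M.entry_big u v w l x y z
  have h6 := M.entry_big u v w (l * d⁻¹) x y z
  have h7 := congrArg j h4
  simp only [map_mul, hD, e, show ∀ a b c, j (M.S a b c) = M.S a b c from fun a b c => hQ' (M.S_mem a b c)] at h7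
  rw [map_mul M.D, ← mul_assoc _ (M.D l), mul_assoc _ _ M.W, ← W_mul_D, ← h7, show M.W * M.D d * M.S 1 0 0 * (M.W * M.D d) =
    M.W * (M.D d * M.S 1 0 0 * (M.D d)⁻¹) * M.W by rw [M.W_mul_D d, ← map_inv]; simp only [mul_assoc, ← W_mul_D],
    D_conj_S, entry_WSW] at h6
  rw [← h4, entry_WSW] at h5
  have h8 := M.σ_ne d.ne_zero
  have h9 := M.σ_ne l.ne_zero
  have h10 := d.ne_zero
  simp only [N, Units.val_mul, Units.val_inv_eq_inv_val, map_mul, map_inv₀, mul_zero, mul_one, map_zero, map_one] at h5 h6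
  field_simp at h5 h6
  change j M.W = M.W
  rw [e, show d = 1 from Units.ext (M.eq_one_of (by grind)), map_one, mul_one]

theorem exists_hom {j : G →* G} (hj : Function.Injective j) (hQ : ∀ x ∈ M.Q, j x ∈ M.Q)
    (hD : ∀ a, j (M.D a) ∈ M.D.range) : ∃ φ : F →+* F, ∀ a, j (M.D a) = M.D (Units.map φ.toMonoidHom a) := by
  choose l μ ν h using fun a => hQ _ (M.S_mem a 0 0)
  choose f hf using hD
  have h0 : ∀ y z, ∃ y' z', j (M.S 0 y z) = M.S 0 y' z' := fun y z => by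
    obtain ⟨u, v, w, e⟩ := hQ _ (M.S_mem 0 y z)
    obtain rfl : u = 0 := M.S_pow_three_eq_one.1 (by rw [← e, ← map_pow, M.S_pow_three_eq_one.2 rfl, map_one])
    exact ⟨v, w, e⟩
  have h1 : l 1 ≠ 0 := fun e => one_ne_zero (M.S_pow_three_eq_one.1 (hj (by
    rw [map_pow, h, M.S_pow_three_eq_one.2 e, map_one])))
  have h2 : ∀ (k : Fˣ) a, l (k * a) = f k * l a := fun k a => by
    have := congrArg j (M.D_conj_S k a 0 0)
    rw [map_mul, map_mul, map_inv, ← hf, mul_zero, mul_zero, h, h, D_conj_S, S_inj] at this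
    exact this.1.symm
  have h3 : ∀ a b, l (a + b) = l a + l b := fun a b => by
    obtain ⟨y, z, e⟩ := h0 (-(a * M.σ b)) (a * b * M.σ b - a ^ 2 * M.σ b)
    have h4 : M.S a 0 0 * M.S b 0 0 = M.S (a + b) 0 0 * M.S 0 (-(a * M.σ b)) (a * b * M.σ b - a ^ 2 * M.σ b) := by
      simp [S_mul]
    replace h4 := congrArg j h4
    rw [map_mul, map_mul, h, h, h, e, S_mul, S_mul, S_inj] at h4
    simpa using h4.1.symm
  have h4 : l 0 = 0 := by simpa using h3 0 0
  have h5 : ∀ k : Fˣ, l k / l 1 = f k := fun k => by rw [div_eq_iff h1, ← h2, mul_one]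
  refine ⟨⟨⟨⟨fun a => l a / l 1, div_self h1⟩, fun a b => ?_⟩, by simp [h4], fun a b => by simp [h3, add_div]⟩,
    fun a => by rw [← hf]; exact congrArg _ (Units.ext (h5 a).symm)⟩
  by_cases ha : a = 0
  · simp [ha, h4]
  · lift a to Fˣ using Ne.isUnit ha
    simp only [h5, h2, mul_div_assoc]

theorem exists_normal [Finite F] (hF : 3 < Nat.card F) {j : G →* G} (hj : Function.Injective j) :
    ∃ g : G, (∀ x ∈ M.Q, g * j x * g⁻¹ ∈ M.Q) ∧ ∀ a, g * j (M.D a) * g⁻¹ ∈ M.D.range := by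
  have := M.finite
  obtain ⟨k, hk⟩ := IsCyclic.exists_generator (α := Fˣ)
  obtain ⟨g, hg⟩ := H11.exists_conj_le_sylow M.sylow (M.isPGroup_Q.map j)
  replace hg : ∀ x ∈ M.Q, g * j x * g⁻¹ ∈ M.Q := fun x hx => hg _ ⟨x, hx, rfl⟩
  have h1 : g * j (M.D k) * g⁻¹ ∈ M.B := by
    refine M.mem_B_of_conj (conj_ne_one ((map_ne_one_iff _ hj).2 M.S_one_ne)) (hg _ (M.S_mem _ _ _)) ?_
    simpa [mul_assoc] using hg _ (M.D_conj_Q k (M.S_mem 0 0 1))
  obtain ⟨x, hx, a, -, -, e⟩ := M.exists_conj_D h1 fun h => by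
    have h2 := M.Q_pow_nine h
    rw [← pow_mul, conj_pow, ← map_pow, ← map_pow, conj_eq_one_iff, map_eq_one_iff _ hj, D_eq_one] at h2
    obtain ⟨b, b1, b2⟩ := exists_unit hF
    obtain ⟨n, rfl⟩ := hk b
    have h3 : ((k ^ n : Fˣ) : F) ^ 18 = 1 := by
      rw [← Units.val_pow_eq_pow_val, ← zpow_natCast, ← _root_.zpow_mul, mul_comm, _root_.zpow_mul, zpow_natCast, h2]; simp
    have h5 : ((k ^ n : Fˣ) : F) ≠ 1 := fun e => b1 (Units.ext e)
    have h6 : ((k ^ n : Fˣ) : F) ≠ -1 := fun e => b2 (Units.ext e)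
    generalize ((k ^ n : Fˣ) : F) = t at *
    have h7 : (t ^ 2 - 1) ^ 9 = 0 := by grind
    have := pow_eq_zero_iff (n := 9) (by decide) |>.1 h7
    grind
  refine ⟨x * g, fun y hy => ?_, fun b => ?_⟩
  · simpa [mul_assoc] using mul_mem (mul_mem hx (hg y hy)) (inv_mem hx)
  · obtain ⟨n, rfl⟩ := hk b
    exact ⟨a ^ n, by rw [map_zpow, map_zpow, map_zpow, ← conj_zpow, ← e]; group⟩

include M in
theorem card_out [Finite F] (hF : 3 < Nat.card F) : Nat.card (Out G) = Nat.card (F ≃+* F) := by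
  have := M.finite
  have hφ : ∀ (φ : F →+* F) x, φ (M.σ x) = M.σ (φ x) := fun φ => ringHom_comm φ M.σ
  let A : (F →+* F) → MulAut G := fun φ =>
    MulEquiv.ofBijective (M.ι (hφ φ)) (Finite.injective_iff_bijective.1 (M.ι_inj _))
  symm
  refine Nat.card_eq_of_bijective (fun σ => (A σ : Out G)) ⟨fun σ τ h => ?_, fun α => ?_⟩
  · obtain ⟨g, hg⟩ := QuotientGroup.eq.1 h
    have h1 : ∀ x, M.ι (hφ σ) (g * x * g⁻¹) = M.ι (hφ τ) x := fun x => by
      rw [eq_inv_mul_iff_mul_eq] at hg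
      exact congrArg (· x) hg
    have h2 : g * M.S 1 0 0 * g⁻¹ = M.S 1 0 0 := M.ι_inj (hφ σ) (by rw [h1, ι_S, ι_S]; simp)
    have h3 : g * M.W * g⁻¹ = M.W := M.ι_inj (hφ σ) (by rw [h1, ι_W, ι_W])
    have h4 := M.smul_inf_iff.2 (M.mem_B_of_conj (by simp [S_eq_one]) (M.S_mem 1 0 0) (h2.symm ▸ M.S_mem 1 0 0))
    obtain ⟨k, rfl⟩ := M.exists_D h4 (by rw [← W_smul_inf, ← mul_smul, mul_inv_eq_iff_eq_mul.1 h3, mul_smul, h4])
    obtain rfl : k = 1 := Units.ext (by simpa [D_conj_S, S_inj] using h2)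
    ext b
    simpa [ι_S, S_inj] using h1 (M.S b 0 0)
  · obtain ⟨α, rfl⟩ := QuotientGroup.mk_surjective α
    obtain ⟨g, h1, h2⟩ := M.exists_normal hF (j := α.toMonoidHom) α.injective
    obtain ⟨φ, h3⟩ := M.exists_hom (j := (MulAut.conj g * α).toMonoidHom) (MulEquiv.injective _) h1 h2
    let σ := RingEquiv.ofBijective φ (Finite.injective_iff_bijective.1 φ.injective)
    let β : MulAut G := (A φ)⁻¹ * (MulAut.conj g * α)
    have h4 : ∀ x ∈ M.Q, β x ∈ M.Q := fun x hx => by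
      obtain ⟨a, b, c, e⟩ := h1 x hx
      refine ⟨σ.symm a, σ.symm b, σ.symm c, (A φ).symm_apply_eq.2 (e.trans ?_)⟩
      have h6 : ∀ a, φ (σ.symm a) = a := σ.apply_symm_apply
      exact ((M.ι_S (hφ φ) (σ.symm a) (σ.symm b) (σ.symm c)).trans (by rw [h6, h6, h6])).symm
    have h5 : ∀ a, β (M.D a) = M.D a := fun a => (A φ).symm_apply_eq.2 ((h3 a).trans (M.ι_D (hφ φ) a).symm)
    obtain ⟨l, b, c, e⟩ := h4 _ (M.S_mem 1 0 0)
    have h6 : l ≠ 0 := fun e' => one_ne_zero (M.S_pow_three_eq_one.1 (β.injective (by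
      rw [map_pow, e, M.S_pow_three_eq_one.2 e', map_one])))
    have h7 := M.eq_id hF (j := (MulAut.conj (M.D (Units.mk0 l h6)⁻¹) * β).toMonoidHom)
      (fun x hx => M.D_conj_Q _ (h4 x hx)) (fun a => by simp [h5, mul_assoc, M.D_comm a]) (by
        simp only [MulEquiv.coe_toMonoidHom, MulAut.mul_apply, MulAut.conj_apply, e, D_conj_S]
        rw [Units.val_inv_eq_inv_val, Units.val_mk0, inv_mul_cancel₀ h6])
    have h8 : MulAut.conj (M.D (Units.mk0 l h6)⁻¹) * β = 1 := MulEquiv.ext h7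
    have h9 : ∀ x : G, ((MulAut.conj x : MulAut G) : Out G) = 1 := fun x => (QuotientGroup.eq_one_iff _).2 ⟨x, rfl⟩
    have := congrArg (QuotientGroup.mk : _ → Out G) h8
    simp only [β, QuotientGroup.mk_mul, h9, one_mul, QuotientGroup.mk_inv, QuotientGroup.mk_one, inv_mul_eq_one] at this
    exact ⟨σ, this⟩

end Model

end Cfsg.Agent.H15.Ree
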