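import Cfsg.Agent.H4.Char4
import Cfsg.Agent.H15.Sz6
import Cfsg.Agent.H15.Ree10

/-! Minimal degrees of complex representations of the Suzuki and small Ree groups. -/

set_option autoImplicit false

namespace Cfsg.Agent.H15

open Cfsg.Agent.H4 Finset

section
variable {G H A : Type*} [Group G] [Group H] [AddCommGroup A] [Fintype A] {χ : G → ℂ}

theorem sum_shift (ψ : AddChar A ℂ) {M : Type*} [AddCommMonoid M] [Module ℂ M] (f : A → M) (b : A) :
    ∑ a, ψ a • f (b + a) = ψ (-b) • ∑ a, ψ a • f a := by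
  rw [smul_sum, ← Equiv.sum_comp (Equiv.addLeft b) fun a => ψ (-b) • ψ a • f a]
  simp [smul_smul, ← AddChar.map_add_eq_mul]

theorem isCharacter_proj (hχ : IsCharacter G χ) (f : H →* G) {ζ : A → G} (hζ : ∀ a b, ζ (a + b) = ζ a * ζ b)
    (ψ : AddChar A ℂ) (hf : ∀ h, ∃ τ : A ≃ A, ∀ a, ζ (τ a) * f h = f h * ζ a ∧ ψ (τ a) = ψ a) :
    IsCharacter H fun h => (Fintype.card A : ℂ)⁻¹ * ∑ a, ψ a * χ (f h * ζ a) := by
  obtain ⟨n, ρ, rfl⟩ := hχ
  have hA : (Fintype.card A : ℂ) ≠ 0 := Nat.cast_ne_zero.2 Fintype.card_ne_zero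
  have := isCharacter_trace_mul_idem (ρ.comp f) ((Fintype.card A : ℂ)⁻¹ • ∑ a, ψ a • ρ (ζ a)) (fun h => by
    obtain ⟨τ, hτ⟩ := hf h
    rw [smul_mul_assoc, mul_smul_comm, sum_mul, mul_sum, ← Equiv.sum_comp τ]
    simp only [MonoidHom.comp_apply, smul_mul_assoc, mul_smul_comm, ← map_mul, hτ]) (by
    rw [smul_mul_assoc, mul_smul_comm, sum_mul]
    have key : ∀ x, (ψ x • ρ (ζ x)) * ∑ a, ψ a • ρ (ζ a) = ∑ a, ψ a • ρ (ζ a) := fun x => by
      rw [smul_mul_assoc, mul_sum]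
      simp only [mul_smul_comm, ← map_mul, ← hζ, sum_shift ψ fun a => ρ (ζ a)]
      simp [smul_smul, ← AddChar.map_add_eq_mul]
    simp only [key, sum_const, card_univ, ← Nat.cast_smul_eq_nsmul ℂ, smul_smul]
    congr 1; field_simp)
  simpa [mul_sum, Representation.character] using this

theorem exists_proj (hχ : IsCharacter G χ) {ζ : A → G} (hζ : ∀ a b, ζ (a + b) = ζ a * ζ b) (ψ : AddChar A ℂ) :
    ∃ n : ℕ, ∑ a, ψ a * χ (ζ a) = Fintype.card A * n := by
  obtain ⟨n, hn⟩ := (isCharacter_proj hχ (1 : G →* G) hζ ψ fun _ => ⟨Equiv.refl _, by simp⟩).exists_degree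
  have hA : (Fintype.card A : ℂ) ≠ 0 := Nat.cast_ne_zero.2 Fintype.card_ne_zero
  exact ⟨n, by rw [← hn]; simp [hA]⟩

theorem sum_const_ne [DecidableEq A] (ψ : AddChar A ℂ) {f : A → ℂ} {α : ℂ} (h : ∀ a ≠ 0, f a = α) :
    ∑ a, ψ a * f a = f 0 - α + α * ∑ a, ψ a := by
  rw [mul_sum, ← add_sum_erase _ _ (mem_univ 0), ← add_sum_erase _ _ (mem_univ 0),
    sum_congr rfl fun a ha => by rw [h a (ne_of_mem_erase ha), mul_comm]]
  simp; ring

theorem ne_of_simple [Finite G] [IsSimpleGroup G] {k : ℕ} {ρ : Representation ℂ G (Fin k → ℂ)} (hρ : ρ.IsIrreducible)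
    (hk : 2 ≤ k) {g : G} (hg : g ≠ 1) : ρ.character g ≠ k := fun h => by
  have h1 : IsIrrCharacter G ρ.character := ⟨k, ρ, hρ, rfl⟩
  have h2 := h1.charKer_eq_bot_of_simple fun e => by
    have : (k : ℂ) = 1 := by simpa using congrFun e 1
    norm_cast at this; omega
  exact hg (Subgroup.mem_bot.1 (h2 ▸ h1.isCharacter.mem_charKer.2 (by simpa using h)))

end

theorem Sz.Model.degree {G : Type*} [Group G] {F : Type*} [Field F] [CharP F 2] [Fintype F] (M : Sz.Model G F) {k r : ℕ}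
    (hr : Fintype.card F = 2 * r ^ 2) {ρ : Representation ℂ G (Fin k → ℂ)} (hρ : ρ.IsIrreducible) (hk : 2 ≤ k) :
    r * (Fintype.card F - 1) ≤ k := by
  classical
  have := M.finite
  have := M.isSimpleGroup
  have := Fintype.ofFinite M.Q
  have hχ : IsCharacter G ρ.character := ⟨k, ρ, rfl⟩
  obtain ⟨ψ, h1, h2⟩ : ∃ ψ : AddChar F ℂ, ψ ≠ 1 ∧ ∀ x, ψ (M.θ x) = ψ x := by
    let f : F →+ F := M.θ.toAddMonoidHom - AddMonoidHom.id F
    obtain ⟨a, ha⟩ : ∃ a, a ∉ f.range := by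
      by_contra! h
      exact one_ne_zero (Finite.injective_iff_surjective.2 h (show f 1 = f 0 by simp [f]))
    obtain ⟨ψ, hψ⟩ := AddChar.exists_apply_ne_zero.2 ((QuotientAddGroup.eq_zero_iff a).not.2 ha)
    refine ⟨ψ.compAddMonoidHom (QuotientAddGroup.mk' _), AddChar.ne_one_iff.2 ⟨a, hψ⟩, fun x => congrArg ψ ?_⟩
    exact QuotientAddGroup.eq.2 ⟨-x, by simp [f]⟩
  have hα : ∀ b ≠ 0, ρ.character (M.S 0 b) = ρ.character (M.S 0 1) := fun b hb => by
    obtain ⟨a, rfl⟩ := M.exists_θ hb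
    simpa [M.D_conj_S] using ρ.char_conj (M.S 0 1) (M.D a)
  have h3 := ne_of_simple hρ hk (g := M.S 0 1) (by simp [M.S_eq_one])
  have hζ := fun a b => (M.S_zero_mul a b).symm
  obtain ⟨n, hn⟩ := exists_proj hχ hζ 1
  have hθ := isCharacter_proj hχ M.Q.subtype hζ ψ (by
    rintro ⟨_, a, b, rfl⟩; exact ⟨Equiv.refl _, fun c => ⟨M.S_comm_iff.2 (by simp), rfl⟩⟩)
  set θ : M.Q → ℂ := fun h => _ * ∑ a, ψ a * ρ.character (M.Q.subtype h * M.S 0 a) with e
  obtain ⟨l, hl⟩ := hθ.exists_degree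
  have hq : (Fintype.card F : ℂ) ≠ 0 := Nat.cast_ne_zero.2 Fintype.card_ne_zero
  have h4 : (k : ℂ) - ρ.character (M.S 0 1) = Fintype.card F * l := by
    rw [← hl, e]
    simp [sum_const_ne ψ hα, AddChar.sum_eq_zero_of_ne_one h1, M.S_zero, hq]
  have h5 : k = n + (Fintype.card F - 1) * l := by
    rw [sum_const_ne 1 hα] at hn
    simp only [M.S_zero, ρ.char_one, AddChar.one_apply, sum_const, card_univ, nsmul_eq_mul, mul_one,
      Module.finrank_fin_fun] at hn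
    have : (k : ℂ) = n + (Fintype.card F - 1) * l := mul_left_cancel₀ hq (by
      linear_combination hn + (Fintype.card F - 1) * h4)
    rw [← Nat.cast_one, ← Nat.cast_sub Fintype.card_pos] at this
    exact_mod_cast this
  have h6 : ∀ a b, a ≠ 0 → a ≠ 1 → θ ⟨_, M.S_mem a b⟩ = 0 := fun a b a0 a1 => by
    obtain ⟨y, hy⟩ := AddChar.ne_one_iff.1 h1
    have b0 := M.θ_ne a0
    have b1 : M.θ a + M.θ a ^ 2 ≠ 0 := fun h => by
      have : M.θ a = M.θ 1 := by rw [map_one]; grind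
      exact a1 (M.θ.injective this)
    obtain ⟨c, hc⟩ := (M.θ_surj.comp M.θ_surj) (y / (M.θ a + M.θ a ^ 2))
    rw [Function.comp, M.sq, eq_div_iff b1] at hc
    have h7 : ψ (M.θ c * a + M.θ a * c) = ψ y := by
      rw [AddChar.map_add_eq_mul, ← h2, ← h2 (M.θ a * c), ← h2 (M.θ (M.θ a * c)), ← AddChar.map_add_eq_mul, ← hc]
      simp only [map_mul, M.sq, map_pow]; ring_nf
    have h8 := hθ.isClassFunction ⟨_, M.S_mem a b⟩ ⟨_, M.S_mem c 0⟩
    have h9 : M.S c 0 * M.S a b * (M.S c 0)⁻¹ = M.S a b * M.S 0 (M.θ c * a + M.θ a * c) := by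
      rw [M.S_conj, M.S_mul]; simp [add_assoc]
    simp only [e, Subgroup.coe_subtype, Subgroup.coe_mul, Subgroup.coe_inv, h9] at h8 ⊢
    simp only [mul_assoc, ← hζ] at h8
    have := sum_shift ψ (fun x => ρ.character (M.S a b * M.S 0 x)) (M.θ c * a + M.θ a * c)
    simp only [smul_eq_mul, CharTwo.neg_eq, h7] at this
    rw [this, mul_left_comm] at h8
    exact (mul_left_eq_self₀.1 h8).resolve_left hy
  obtain ⟨j, hj⟩ := hθ.classInner_nat hθ
  have h7 : l ≠ 0 := by rintro rfl; exact h3 (by rw [Nat.cast_zero, mul_zero, sub_eq_zero] at h4; exact h4.symm)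
  have h8 : j ≠ 0 := by
    rintro rfl
    rw [Nat.cast_zero, classInner_self_eq_zero] at hj
    exact h7 (by simpa [hj] using hl.symm)
  have h9 : ∑ g, ‖θ g‖ ^ 2 ≤ (2 * Fintype.card F : ℕ) * (l : ℝ) ^ 2 := by
    let s : Finset M.Q := (({0, 1} : Finset F) ×ˢ (univ : Finset F)).image fun p => ⟨_, M.S_mem p.1 p.2⟩
    rw [← sum_subset (subset_univ s) (by
      rintro ⟨_, a, b, rfl⟩ - h
      rw [h6 a b (by rintro rfl; exact h (mem_image.2 ⟨(0, b), by simp, rfl⟩))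
        (by rintro rfl; exact h (mem_image.2 ⟨(1, b), by simp, rfl⟩))]; simp)]
    refine (sum_le_card_nsmul _ _ ((l : ℝ) ^ 2) fun g _ => ?_).trans ?_
    · exact pow_le_pow_left₀ (norm_nonneg _) (by simpa [hl] using hθ.norm_le g) 2
    · rw [nsmul_eq_mul]
      gcongr
      exact card_image_le.trans (by simp)
  have h10 := classInner_self_re θ
  rw [hj, M.card_Q, Nat.card_eq_fintype_card, Complex.natCast_re, eq_inv_mul_iff_mul_eq₀ (by positivity)] at h10
  have h11 : Fintype.card F ^ 2 * j ≤ 2 * Fintype.card F * l ^ 2 := by exact_mod_cast h10.le.trans h9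
  have h12 : r ≤ l := by
    have h0 : 0 < Fintype.card F := Fintype.card_pos
    refine Nat.pow_le_pow_iff_left two_ne_zero |>.1 (Nat.le_of_mul_le_mul_left ?_ (show 0 < 2 * Fintype.card F by omega))
    refine le_trans ?_ ((Nat.le_mul_of_pos_right _ (Nat.pos_of_ne_zero h8)).trans h11)
    nth_rewrite 2 [pow_two]; nth_rewrite 3 [hr]; exact le_of_eq (by ring)
  rw [h5, mul_comm]
  exact le_add_left (Nat.mul_le_mul_left _ h12)

theorem Ree.Model.degree {G : Type*} [Group G] [IsSimpleGroup G] {F : Type*} [Field F] [CharP F 3] [Fintype F]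
    (M : Ree.Model G F) {k : ℕ} {ρ : Representation ℂ G (Fin k → ℂ)} (hρ : ρ.IsIrreducible) (hk : 2 ≤ k) :
    Fintype.card F ^ 2 - Fintype.card F + 1 ≤ k := by
  classical
  have := M.finite
  have hχ : IsCharacter G ρ.character := ⟨k, ρ, rfl⟩
  obtain ⟨ψ, h0⟩ := AddChar.exists_apply_ne_zero.2 (one_ne_zero (α := F))
  have h1 := AddChar.sum_eq_zero_of_ne_one (AddChar.ne_one_iff.2 ⟨1, h0⟩)
  have hα : ∀ c ≠ 0, ρ.character (M.S 0 0 c) = ρ.character (M.S 0 0 1) := fun c hc => by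
    obtain ⟨a, rfl⟩ := M.exists_cube hc
    simpa [M.D_conj_S] using ρ.char_conj (M.S 0 0 1) (M.D a)
  have h3 := ne_of_simple hρ hk M.S_one_ne
  have hζ : ∀ a b, M.S 0 0 (a + b) = M.S 0 0 a * M.S 0 0 b := by simp [M.S_mul]
  obtain ⟨l, hl⟩ := exists_proj hχ (ζ := fun p : F × F => M.S 0 p.1 p.2) (by simp [M.S_mul])
    (ψ.compAddMonoidHom (AddMonoidHom.snd F F))
  have hβ : ∀ b ≠ 0, ∀ c, ρ.character (M.S 0 b c) = ρ.character (M.S 0 b 0) := fun b hb c => by
    rw [← ρ.char_conj (M.S 0 b 0) (M.S (c / b) 0 0), M.S_inv, M.S_mul, M.S_mul]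
    congr 1; rw [M.S_inj]; simp [hb]; grind
  rw [Fintype.sum_prod_type, sum_eq_single 0 (fun b _ hb => by simp [hβ b hb, ← sum_mul, h1]) (by simp)] at hl
  simp only [AddChar.compAddMonoidHom_apply, AddMonoidHom.coe_snd, sum_const_ne ψ hα, h1, M.S_zero, ρ.char_one,
    Module.finrank_fin_fun, Fintype.card_prod, mul_zero, add_zero, Nat.cast_mul] at hl
  have hθ := isCharacter_proj hχ M.B.subtype hζ 1 (by
    rintro ⟨_, _, ⟨a, b, c, rfl⟩, d, rfl⟩
    refine ⟨Equiv.mulLeft₀ ((d : F) ^ 2 * M.σ d) (by simp), fun x => ⟨?_, rfl⟩⟩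
    simp [mul_assoc, M.D_mul_S]; simp [← mul_assoc, M.S_mul, add_comm])
  obtain ⟨n, hn⟩ := hθ.exists_degree
  have hq : (Fintype.card F : ℂ) ≠ 0 := Nat.cast_ne_zero.2 Fintype.card_ne_zero
  have h5 : k = n + (Fintype.card F - 1) * Fintype.card F * l := by
    simp only [map_one, one_mul, sum_const_ne 1 hα] at hn
    simp only [M.S_zero, ρ.char_one, AddChar.one_apply, sum_const, card_univ,
      nsmul_eq_mul, mul_one, Module.finrank_fin_fun, inv_mul_eq_iff_eq_mul₀ hq] at hn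
    have : (k : ℂ) = n + (Fintype.card F - 1) * Fintype.card F * l := mul_left_cancel₀ hq (by
      linear_combination hn + (Fintype.card F - 1) * hl)
    rw [← Nat.cast_one, ← Nat.cast_sub Fintype.card_pos] at this
    exact_mod_cast this
  have h7 : l ≠ 0 := by rintro rfl; exact h3 (by rw [Nat.cast_zero, mul_zero, sub_eq_zero] at hl; exact hl.symm)
  have h4 := M.card_mod_four
  rw [Nat.card_eq_fintype_card] at h4
  obtain ⟨q, e⟩ : ∃ q, Fintype.card F = 4 * q + 3 := ⟨_, (Nat.div_add_mod _ 4).symm.trans (by rw [h4])⟩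
  by_contra hcon
  rw [e] at hcon h5
  obtain ⟨rfl, rfl⟩ : n = 0 ∧ l = 1 := by
    obtain ⟨l, rfl⟩ := Nat.exists_eq_succ_of_ne_zero h7
    rw [show (4 * q + 3) ^ 2 - (4 * q + 3) = (4 * q + 2) * (4 * q + 3) from Nat.sub_eq_of_eq_add (by ring)] at hcon
    rw [show 4 * q + 3 - 1 = 4 * q + 2 from rfl, Nat.mul_succ] at h5
    have : (4 * q + 2) * (4 * q + 3) * l = 0 := by omega
    exact ⟨by omega, by simpa using this⟩
  have h8 := congrFun (hθ.eq_zero_of_apply_one (by simpa using hn)) ⟨_, M.D_mem_B (-1)⟩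
  have h9 : ∀ x, x ≠ 1 → x * x = 1 → ρ.character x = ρ.character M.h0 := fun x a b =>
    (hχ.isClassFunction.of_isConj (M.isConj_h0 a b)).symm
  have h10 : ∀ c, ρ.character (M.h0 * M.S 0 0 c) = ρ.character M.h0 := fun c => h9 _
    (by rw [M.h0_mul_S]; exact fun h => M.Sh0_not_mem _ _ _ (h ▸ one_mem _))
    (by rw [M.h0_mul_S, ← pow_two, M.Sh0_sq]; simp [M.S_zero])
  have h11 : ρ.character M.h0 = 0 := by simpa [← Ree.Model.h0.eq_1, h10, hq] using h8
  obtain ⟨j, hj⟩ := exists_proj hχ (ζ := fun p : ZMod 2 × ZMod 2 => M.h0 ^ p.1.val * M.W ^ p.2.val) (fun a b => by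
    have h := (show Commute M.h0 M.W from M.h0_mul_W).pow_pow b.1.val a.2.val
    simp only [Prod.fst_add, Prod.snd_add, M.h0_pow_add, H11.pow_val_add (show M.W ^ 2 = 1 by rw [pow_two, M.W_mul_W])]
    rw [mul_assoc, mul_assoc, ← mul_assoc (M.h0 ^ b.1.val), h.eq, mul_assoc]) 1
  have h12 : (univ : Finset (ZMod 2)) = {0, 1} := rfl
  have h13 : ZMod.val (1 : ZMod 2) = 1 := rfl
  simp [Fintype.sum_prod_type, h12, h13, h9 _ M.W_ne_one M.W_mul_W, h9 _ M.h0W_ne_one M.h0W_mul_self, h11] at hj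
  norm_cast at hj
  rw [show 4 * q + 3 - 1 = 4 * q + 2 from rfl] at h5
  have : (4 * q + 2) * (4 * q + 3) = 4 * (4 * q ^ 2 + 5 * q + 1) + 2 := by ring
  omega

end Cfsg.Agent.H15
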