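import Cfsg.Agent.H14.EO6
import Cfsg.Agent.H14.Aut
import Mathlib.RingTheory.Polynomial.Cyclotomic.Expand
import Mathlib.LinearAlgebra.Eigenspace.Zero

/-! The Chevalley group `E₇(2)` has no element of order `65`. -/

set_option autoImplicit false

namespace Cfsg.Agent.H15

open Polynomial Matrix Cfsg.Agent.H14 Cfsg.Lie

section poly

variable {ι : Type} [Fintype ι] [DecidableEq ι] {M : Matrix ι ι ℤ} {n : ℕ} (hn : 0 < n) (hM : M ^ n = 1)
include hn hM

theorem exists_cyc_dvd {l : ℕ} (hl : l.Prime) {k : ℤ} (h : (l : ℤ) ∣ M.charpoly.eval k) :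
    ∃ d, 0 < d ∧ cyclotomic d ℤ ∣ M.charpoly ∧ (l : ℤ) ∣ (cyclotomic d ℤ).eval k := by
  have key : ∀ f : ℤ[X], f ∣ M.charpoly → (l : ℤ) ∣ f.eval k → ∃ g, Irreducible g ∧ g ∣ M.charpoly ∧ (l : ℤ) ∣ g.eval k := by
    intro f
    induction f using WfDvdMonoid.induction_on_irreducible with
    | zero => exact fun h => absurd (zero_dvd_iff.1 h) M.charpoly_monic.ne_zero
    | unit u hu =>
      exact fun _ h => absurd (isUnit_of_dvd_unit h (hu.map (evalRingHom k))) (Nat.prime_iff_prime_int.1 hl).not_isUnit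
    | mul a i _ hi ih =>
      intro h1 h2
      rw [eval_mul] at h2
      rcases (Nat.prime_iff_prime_int.1 hl).dvd_or_dvd h2 with h2 | h2
      exacts [⟨i, hi, (dvd_mul_right _ _).trans h1, h2⟩, ih ((dvd_mul_left _ _).trans h1) h2]
  obtain ⟨g, a1, a2, a3⟩ := key _ dvd_rfl h
  have a4 : (g.map (Int.castRingHom ℂ)).degree ≠ 0 := by
    rw [degree_map_eq_of_injective (RingHom.injective_int _)]
    intro h0
    rw [eq_C_of_degree_eq_zero h0] at a1 a2
    exact a1.not_isUnit (isUnit_C.2 (M.charpoly_monic.isPrimitive _ a2))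
  obtain ⟨z, hz⟩ := IsAlgClosed.exists_root _ a4
  have a5 : z ^ n = 1 := by
    have := spectrum.pow_mem_pow _ n (Matrix.mem_spectrum_iff_isRoot_charpoly.2
      ((M.charpoly_map (Int.castRingHom ℂ)).symm ▸ hz.dvd (Polynomial.map_dvd _ a2)))
    rw [← RingHom.mapMatrix_apply, ← map_pow, hM, map_one] at this
    by_contra h0
    exact spectrum.mem_iff.1 this (by
      rw [← map_one (algebraMap ℂ (Matrix ι ι ℂ)), ← map_sub]; exact (IsUnit.mk0 _ (sub_ne_zero.2 h0)).map _)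
  have a6 : 0 < orderOf z := (isOfFinOrder_iff_pow_eq_one.2 ⟨n, hn, a5⟩).orderOf_pos
  have a7 : cyclotomic (orderOf z) ℤ ∣ g := by
    rw [cyclotomic_eq_minpoly (IsPrimitiveRoot.orderOf z) a6]
    exact minpoly.isIntegrallyClosed_dvd ((IsPrimitiveRoot.orderOf z).isIntegral a6) (by simpa [aeval_def, eval_map] using hz)
  exact ⟨_, a6, a7.trans a2, a3.trans (eval_dvd ((cyclotomic.irreducible a6).associated_of_dvd a1 a7).symm.dvd)⟩

theorem cyc_dvd_of {l : ℕ} [hl : Fact l.Prime] {k : ℕ} (h : (l : ℤ) ∣ M.charpoly.eval (k : ℤ))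
    (hd : Fintype.card ι < (l - 1) * (orderOf (k : ZMod l)).totient) : cyclotomic (orderOf (k : ZMod l)) ℤ ∣ M.charpoly := by
  obtain ⟨d, a1, a2, a3⟩ := exists_cyc_dvd hn hM hl.out h
  obtain ⟨j, m, hm, rfl⟩ := Nat.exists_eq_pow_mul_and_not_dvd a1.ne' l hl.out.ne_one
  have : NeZero (m : ZMod l) := ⟨by rwa [Ne, ZMod.natCast_eq_zero_iff]⟩
  have a4 : IsPrimitiveRoot (k : ZMod l) m := (isRoot_cyclotomic_prime_pow_mul_iff_of_charP (k := j) (p := l)).1 (by
    rw [← map_cyclotomic_int, IsRoot, ← Int.cast_natCast, eval_intCast_map, Int.cast_id, eq_intCast,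
      ZMod.intCast_zmod_eq_zero_iff_dvd]
    exact a3)
  rw [← a4.eq_orderOf] at hd ⊢
  rcases j with _ | j
  · simpa using a2
  have a5 := natDegree_le_of_dvd a2 M.charpoly_monic.ne_zero
  rw [natDegree_cyclotomic, charpoly_natDegree_eq_dim, Nat.totient_mul ((hl.out.coprime_iff_not_dvd.2 hm).pow_left _),
    Nat.totient_prime_pow_succ hl.out] at a5
  exact absurd (hd.trans_le ((Nat.mul_le_mul_right _ (Nat.le_mul_of_pos_left _ (pow_pos hl.out.pos j))).trans a5)) (lt_irrefl _)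

theorem charpoly_of_65 (hc : Fintype.card ι = 7) (h : (65 : ℤ) ∣ M.charpoly.eval 2) :
    ∃ e : ℤ, M.charpoly = (X ^ 6 + 1) * (X - C e) := by
  have o1 : orderOf ((2 : ℕ) : ZMod 5) = 4 := (orderOf_eq_iff (by norm_num)).2 (by decide)
  have o2 : orderOf ((2 : ℕ) : ZMod 13) = 12 := (orderOf_eq_iff (by norm_num)).2 (by decide)
  have : Fact (Nat.Prime 5) := ⟨by norm_num⟩
  have : Fact (Nat.Prime 13) := ⟨by norm_num⟩
  have h1 := cyc_dvd_of hn hM (l := 5) (k := 2) ((by norm_num : ((5 : ℕ) : ℤ) ∣ 65).trans h) (by rw [o1, hc]; decide)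
  have h2 := cyc_dvd_of hn hM (l := 13) (k := 2) ((by norm_num : ((13 : ℕ) : ℤ) ∣ 65).trans h) (by rw [o2, hc]; decide)
  rw [o1] at h1
  rw [o2] at h2
  have c1 : cyclotomic 4 ℤ = X ^ 2 + 1 := by
    rw [← cyclotomic_expand_eq_cyclotomic Nat.prime_two (dvd_refl 2), cyclotomic_two]; simp
  have c2 : cyclotomic 12 ℤ = X ^ 4 - X ^ 2 + 1 := by
    rw [← cyclotomic_expand_eq_cyclotomic Nat.prime_two (by norm_num : 2 ∣ 6), cyclotomic_six]; simp [← pow_mul]
  obtain ⟨f, hf⟩ := h2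
  obtain ⟨g, hg⟩ := ((cyclotomic.irreducible (by norm_num)).prime.dvd_or_dvd (hf ▸ h1)).resolve_left fun h => by
    have := eval_dvd (x := 2) h
    rw [c1, c2] at this
    norm_num at this
  have a1 : M.charpoly = (X ^ 6 + 1) * g := by rw [hf, hg, c1, c2]; ring
  have a2 : (X ^ 6 + 1 : ℤ[X]).Monic := monic_X_pow_add_C 1 (by norm_num)
  have a3 : g.Monic := a2.of_mul_monic_left (a1 ▸ M.charpoly_monic)
  have a4 : g.natDegree = 1 := by
    have := a2.natDegree_mul a3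
    rw [← a1, charpoly_natDegree_eq_dim, hc, show (X ^ 6 + 1 : ℤ[X]) = X ^ 6 + C 1 from rfl, natDegree_X_pow_add_C] at this
    omega
  exact ⟨-g.coeff 0, by rw [a1, map_neg, sub_neg_eq_add, ← a3.eq_X_add_C a4]⟩

omit hn hM in
theorem dep_of_charpoly {e : ℤ} (h : M.charpoly = (X ^ 6 + 1) * (X - C e)) {a b : ι → ℤ} (ha : a ᵥ* M = e • a)
    (hb : b ᵥ* M = e • b) (h0 : a ≠ 0) : ∃ s t : ℤ, s ≠ 0 ∧ s • b = t • a := by
  let φ := (M.map (Int.castRingHom ℚ))ᵀ.toLin'
  have a1 : Module.finrank ℚ (Module.End.eigenspace φ (e : ℚ)) ≤ 1 := (LinearMap.finrank_eigenspace_le φ e).trans (by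
    rw [Matrix.charpoly_toLin', charpoly_transpose, charpoly_map, h, Polynomial.map_mul, rootMultiplicity_mul, Polynomial.map_sub,
      map_X, map_C, eq_intCast, rootMultiplicity_X_sub_C_self, rootMultiplicity_eq_zero]
    · simp; positivity
    · rw [← Polynomial.map_mul, ← h]; exact (M.charpoly_monic.map _).ne_zero)
  have a2 : ∀ a : ι → ℤ, a ᵥ* M = e • a → (fun i => (a i : ℚ)) ∈ Module.End.eigenspace φ (e : ℚ) := fun a ha => by
    rw [Module.End.mem_eigenspace_iff]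
    funext i
    simpa [φ, vecMul, dotProduct, mulVec, mul_comm] using congrArg (Int.cast : ℤ → ℚ) (congrFun ha i)
  obtain ⟨v, hv⟩ := finrank_le_one_iff.1 a1
  obtain ⟨x, hx⟩ := hv ⟨_, a2 a ha⟩
  obtain ⟨y, hy⟩ := hv ⟨_, a2 b hb⟩
  have hx' : ∀ i, x * v.1 i = a i := fun i => congrFun (congrArg Subtype.val hx) i
  have hy' : ∀ i, y * v.1 i = b i := fun i => congrFun (congrArg Subtype.val hy) i
  have x0 : x ≠ 0 := fun e => h0 (funext fun i => by simpa [e, eq_comm] using hx' i)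
  refine ⟨(y / x).den, (y / x).num, by simp, funext fun i => Int.cast_injective (α := ℚ) ?_⟩
  simp only [Pi.smul_apply, smul_eq_mul, Int.cast_mul, Int.cast_natCast, ← hx', ← hy', ← Rat.mul_den_eq_num]
  field_simp

end poly

theorem tabE7_65 : (allN 126 fun r => allN 126 fun s => forceZ (tabE7.pr 7 r s) fun c => band (ibeq (tabE7.pr 7 s r) c)
    (bor (Nat.beq s (tabE7.neg r)) (bor (ibeq (c % 2) 1) (bnot (allN 7 fun i =>
      ibeq ((tabE7.car i r + tabE7.car i s) ^ 2 % (2 * (2 + c))) 0))))) = true := by decide +kernel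

theorem e7_weyl {R : RS (Fin 7) (Fin 126)} (hp : ∀ r s : Fin 126, tabE7.pr 7 r s = R.pair r s)
    (hc' : ∀ (i : Fin 7) (r : Fin 126), tabE7.car i r = R.pair (R.simple i) r) (hn : ∀ r : Fin 126, tabE7.neg r = R.neg r)
    {A : Type*} [CommGroup A] {s : Fin 7 → A} {w : Equiv.Perm (Fin 126)} (hw : w ∈ R.W)
    (e : mact (R.mat w) s = s ^ 2) : orderOf s ≠ 65 := fun h65 => by
  have hA := R.W_le_Aut hw
  have hM : R.mat w ^ orderOf w = 1 := by rw [← R.mat_pow hA, pow_orderOf_eq_one, R.mat_one]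
  obtain ⟨ε, hε⟩ := charpoly_of_65 (orderOf_pos w) hM (by simp) (by
    have h1 : mact ((2 : ℕ) • (1 : Matrix _ _ ℤ) - R.mat w) s = 1 := by
      rw [mact_sub, e, ← Nat.cast_smul_eq_nsmul ℤ, mact_smul, mact_one, mul_inv_cancel]
    have h2 := mact_mul ((2 : ℕ) • (1 : Matrix _ _ ℤ) - R.mat w) (adjugate ((2 : ℕ) • (1 : Matrix _ _ ℤ) - R.mat w)) s
    rw [h1, map_one, mul_adjugate] at h2
    have h3 : s ^ ((2 : ℕ) • (1 : Matrix _ _ ℤ) - R.mat w).det = 1 := funext fun j => by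
      generalize ((2 : ℕ) • (1 : Matrix (Fin 7) (Fin 7) ℤ) - R.mat w).det = d at h2 ⊢
      rw [show d • (1 : Matrix (Fin 7) (Fin 7) ℤ) = diagonal fun _ => d by ext; simp [one_apply, diagonal_apply, -zsmul_eq_mul]] at h2
      simpa [mact_apply, diagonal_apply] using congrFun h2 j
    rw [← orderOf_dvd_iff_zpow_eq_one, h65] at h3
    rw [eval_charpoly]
    rwa [show scalar (Fin 7) (2 : ℤ) = (2 : ℕ) • (1 : Matrix _ _ ℤ) by ext; simp [diagonal_apply, one_apply, ofNat_apply]])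
  have t := tabE7_65
  simp only [allN_iff, forceZ_eq, band_iff, bor_iff, ibeq_iff, nbeq_iff, bnot_iff] at t
  have t1 : ∀ r s, R.pair r s = R.pair s r := fun r s => by
    simpa only [← hp] using (t s s.2 r r.2).1
  have p1 : ∀ k r s, R.pair ((w ^ k) r) ((w ^ k) s) = R.pair r s := fun k r s => RS.Aut.pair_eq (pow_mem hA k) r s
  have c1 : ∀ k r, R.cov r ᵥ* R.mat w ^ k = R.cov ((w ^ k) r) := fun k r => by rw [← R.mat_pow hA, RS.cov_mat (pow_mem hA k)]
  let a := fun r => R.cov r + R.cov ((w ^ 6) r)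
  have a1 : ∀ r, a r ᵥ* R.mat w = ε • a r := fun r => by
    have := congrArg (R.cov r ᵥ* ·) (aeval_self_charpoly (R.mat w))
    simp only [hε, map_mul, map_add, map_pow, aeval_X, map_one, map_sub, aeval_C, ← vecMul_vecMul, vecMul_add, vecMul_one,
      vecMul_sub, vecMul_zero, c1, Algebra.algebraMap_eq_smul_one, vecMul_smul] at this
    rw [add_comm] at this
    exact sub_eq_zero.1 this
  have a2 : ∀ k r, a r ᵥ* R.mat w ^ k = ε ^ k • a r := fun k r => by
    induction k with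
    | zero => simp
    | succ k ih => rw [pow_succ, ← vecMul_vecMul, ih, smul_vecMul, a1, smul_smul, pow_succ]
  have a3 : ∃ r, a r ≠ 0 := by
    by_contra! h
    have h1 : R.mat w ^ 6 = -1 := by
      ext i j
      have := congrFun (h (R.simple i)) j
      rw [← R.mat_pow hA, Matrix.neg_apply, ← R.mat_one]
      exact eq_neg_of_add_eq_zero_right this
    have h2 := congrArg det h1
    rw [det_pow, det_neg, det_one] at h2
    have : 0 ≤ (R.mat w).det ^ 6 := by positivity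
    simp [h2] at this
  obtain ⟨r, hr⟩ := a3
  have a4 : ε ^ 2 = 1 := by
    have h1 := a2 (orderOf w) r
    rw [hM, vecMul_one] at h1
    obtain ⟨i, hi⟩ := Function.ne_iff.1 hr
    have h2 : ε ^ orderOf w = 1 := mul_right_cancel₀ hi (by simpa using (congrFun h1 i).symm)
    rcases Int.isUnit_iff.1 (IsUnit.of_pow_eq_one h2 (orderOf_pos w).ne') with h | h <;> simp [h]
  have a5 : ∀ k v s, R.pair ((w ^ k) v) s + R.pair ((w ^ (k + 6)) v) s = ε ^ k * (R.pair v s + R.pair ((w ^ 6) v) s) := fun k v s => by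
    simpa only [a, add_vecMul, c1, R.ev_cov, pow_add, map_add, map_smul, smul_eq_mul, Equiv.Perm.mul_apply] using
      congrArg (R.ev s) (a2 k v)
  have a6 : ∀ v, 2 ∣ R.pair v ((w ^ 6) v) := fun v => by
    have h1 := a5 3 v ((w ^ 6) v)
    have h2 : R.pair ((w ^ 3) v) ((w ^ 6) v) = R.pair v ((w ^ 3) v) := by rw [← p1 3 v, ← Equiv.Perm.mul_apply, ← pow_add]
    have h3 : R.pair ((w ^ (3 + 6)) v) ((w ^ 6) v) = R.pair v ((w ^ 3) v) := by
      rw [t1 v, ← p1 6 _ v, ← Equiv.Perm.mul_apply, ← pow_add]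
    rw [h2, h3, R.pair_self, pow_succ ε, a4, one_mul] at h1
    have h4 := congrArg (ε * ·) h1
    simp only [← mul_assoc, ← sq, a4] at h4
    exact ⟨ε * R.pair v ((w ^ 3) v) - 1, by linear_combination -h4⟩
  have a7 : ∀ v s, R.pair ((w ^ 6) v) s = R.pair v ((w ^ 6) s) := fun v s => by
    have h1 := a5 6 v ((w ^ 6) s)
    rw [show ε ^ 6 = 1 by rw [show 6 = 2 * 3 from rfl, pow_mul, a4, one_pow], pow_add, Equiv.Perm.mul_apply, p1, p1] at h1
    linarith
  rcases (t r r.2 _ ((w ^ 6) r).2).2 with h | h | h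
  · refine hr ?_
    rw [hn] at h
    simp only [a, Fin.ext h]
    exact add_eq_zero_iff_eq_neg'.2 (R.cov_neg r)
  · rw [hp] at h
    have := a6 r
    omega
  · refine h fun i hi => Int.emod_eq_zero_of_dvd ?_
    obtain ⟨x, y, x0, hxy⟩ := dep_of_charpoly hε (a1 r) (a1 (R.simple ⟨i, hi⟩)) hr
    have b1 := congrArg (R.ev r) hxy
    have b2 := congrArg (R.ev (R.simple ⟨i, hi⟩)) hxy
    obtain ⟨c, hc⟩ := a6 (R.simple ⟨i, hi⟩)
    simp only [a, map_smul, map_add, R.ev_cov, R.pair_self, smul_eq_mul, a7, hc] at b1 b2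
    rw [hp, hc' ⟨i, hi⟩, hc' ⟨i, hi⟩]
    rw [← a7 r, t1 r, t1 ((w ^ 6) r)] at b2
    refine ⟨1 + c, mul_left_cancel₀ x0 ?_⟩
    linear_combination (R.pair (R.simple ⟨i, hi⟩) r + R.pair (R.simple ⟨i, hi⟩) ((w ^ 6) r)) * b1 -
      (2 + R.pair r ((w ^ 6) r)) * b2

theorem e7_no65 (x : chevE7.group (ZMod 2)) : ¬ 65 ∣ orderOf x := fun h => by
  obtain ⟨x, hx⟩ : ∃ x : chevE7.group (ZMod 2), orderOf x = 65 := ⟨_, orderOf_pow_orderOf_div (orderOf_pos x).ne' h⟩
  have hi : ∀ (K : Type) [Field K] [Algebra (ZMod 2) K], Function.Injective (torS goodE7 stE7 K) := fun K _ _ =>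
    torS_injective_of _ _ K (centerE7 _) fun z hz => Units.ext (by
      have := charP_of_injective_algebraMap (algebraMap (ZMod 2) K).injective 2
      exact CharTwo.sq_injective (by simpa using congrArg Units.val hz))
  obtain ⟨j, h1, h2, -⟩ := exists_embed goodE7 stE7 (ZMod 2) (AlgebraicClosure (ZMod 2)) (hi _) (by
    rw [card_center_St goodE7 stE7 (hi _) (centerE7 _)]; simp)
  have F := fro_St goodE7 stE7 (ZMod 2) (AlgebraicClosure (ZMod 2)) hi
  obtain ⟨s, a1, w, a2, a3⟩ := F.exists_tw ((h2 _).2 ⟨x, rfl⟩) (by rw [orderOf_injective j h1, hx]; simp; norm_num)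
  rw [ZMod.card] at a3
  exact e7_weyl (bridgeE7.pr_eq goodE7) (bridgeE7.car_eq' goodE7)
    (fun r => (bridgeE7.neg_eq r r.2).symm.trans (goodE7.neg_eq r).symm) a2 a3 ((orderOf_injective _ (hi _) s).symm.trans
      ((orderOf_eq_of_isConj a1).symm.trans ((orderOf_injective j h1 x).trans hx)))

end Cfsg.Agent.H15
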