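/-
Suzuki groups: a nontrivial word is not a law in large Suzuki groups.
-/
import Cfsg.Agent.H15.Sz5

set_option autoImplicit false

namespace Cfsg.Agent.H15.Sz

open Matrix MulAction Polynomial

/-- `A` has entries of degree at most `d`, with top coefficients `P`. -/
def Top {F n : Type*} [Field F] (A : Matrix n n F[X]) (d : ℕ) (P : Matrix n n F) : Prop :=
  ∀ i j, (A i j).natDegree ≤ d ∧ (A i j).coeff d = P i j

theorem Top.mul {F n : Type*} [Field F] [Fintype n] {A B : Matrix n n F[X]} {d e : ℕ} {P R : Matrix n n F}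
    (h : Top A d P) (h' : Top B e R) : Top (A * B) (d + e) (P * R) := fun i j => by
  rw [mul_apply, mul_apply, finsetSum_coeff]
  exact ⟨natDegree_sum_le_of_forall_le _ _ fun k _ => natDegree_mul_le.trans (add_le_add (h i k).1 (h' k j).1),
    Finset.sum_congr rfl fun k _ => by rw [coeff_mul_add_eq_of_natDegree_le (h i k).1 (h' k j).1, (h i k).2, (h' k j).2]⟩

theorem Top.const {F n : Type*} [Field F] (P : Matrix n n F) : Top (P.map C) 0 P := fun i j => by simp

/-- The diagonal matrix of monomials. -/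
noncomputable def dg (F : Type*) [Field F] (s : ℕ) (b : Bool) : Matrix (Fin 4) (Fin 4) F[X] :=
  diagonal (if b then ![X ^ (2 * s + 4), X ^ 2, X ^ (2 * s + 2), 1] else ![1, X ^ (2 * s + 2), X ^ 2, X ^ (2 * s + 4)])

theorem top_dg (F : Type*) [Field F] (s : ℕ) (b : Bool) :
    Top (dg F s b) (2 * s + 4) (single (if b then 0 else 3) (if b then 0 else 3) 1) := fun i j => by
  cases b <;> fin_cases i <;> fin_cases j <;> simp [dg, coeff_X_pow, coeff_one]

namespace Model

variable {G : Type*} [Group G] {F : Type*} [Field F] [CharP F 2] (M : Model G F)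

theorem eval_dg {s : ℕ} (hθ : ∀ x, M.θ x = x ^ (s + 2)) (u : Fˣ) (b : Bool) :
    (dg F s b).map (eval (u : F)) = (u : F) ^ (s + 2) • M.mat (cond b (M.D (u ^ (s + 2))) (M.D (u ^ (s + 2)))⁻¹) := by
  have h1 : M.θ ((u : F) ^ (s + 2)) = (u : F) ^ 2 := by rw [← hθ, M.sq]
  have h2 := u.ne_zero
  cases b
  · rw [cond_false, ← map_inv, mat_D]
    ext i j
    fin_cases i <;> fin_cases j <;> simp [dg, Tw.Dm, h1] <;> field_simp <;> ring
  · rw [cond_true, mat_D]
    ext i j
    fin_cases i <;> fin_cases j <;> simp [dg, Tw.Dm, h1] <;> field_simp <;> ring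

/-- The base point attached to a sign. -/
def bp (b : Bool) : M.Pt := if b then M.inf else M.pt 0 0

theorem single_vec (b : Bool) {p : M.Pt} (hp : p ≠ M.bp (!b)) : ∃ k : F, k ≠ 0 ∧
    single (if b then 0 else 3) (if b then 0 else 3) (1 : F) *ᵥ M.vec p = k • M.vec (M.bp b) := by
  refine ⟨M.vec p (if b then 0 else 3), ?_, ?_⟩
  · rcases M.pt_cases p with rfl | ⟨x, y, rfl⟩ <;> cases b
    · exact absurd rfl hp
    · simp [inf, Tw.vec]
    · simp [pt, Tw.vec]
    · exact fun h => hp (M.pt_inj.2 (M.N_eq_zero h))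
  · ext i
    cases b <;> fin_cases i <;> simp [bp, inf, pt, Tw.vec, mulVec, dotProduct, Fin.sum_univ_four, single]

theorem not_law [Fintype F] {s : ℕ} (hθ : ∀ x, M.θ x = x ^ (s + 2)) {L : List (ℕ × Bool)} (hL : FreeGroup.IsReduced L)
    (h0 : L ≠ []) {n : ℕ} (hn : ∀ l ∈ L, l.1 < n) (h1 : n ≤ Fintype.card F)
    (h2 : (2 * s + 4) * L.length < Fintype.card F - 1) : ∃ f : ℕ → G, FreeGroup.lift f (FreeGroup.mk L) ≠ 1 := by
  classical
  let x : ℕ → F := fun i => if h : i < Fintype.card F then (Fintype.equivFin F).symm ⟨i, h⟩ else 0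
  have hx : ∀ i < n, ∀ j < n, x i = x j → i = j := fun i hi j hj e => by
    simpa [x, hi.trans_le h1, hj.trans_le h1] using e
  choose c hc hc' using fun i => RO.two M.setup (M.pt_ne_inf 0 0).symm
    (d := M.pt (x i) 0) (e := M.pt (x i) 1) (by simp [pt_inj])
  have hb : ∀ i b, c i • M.bp b = M.pt (x i) (if b then 0 else 1) := fun i b => by cases b <;> simp [bp, hc, hc']
  let A : ℕ × Bool → Matrix (Fin 4) (Fin 4) F[X] := fun l => (M.mat (c l.1)).map C * dg F s l.2 * (M.mat (c l.1)⁻¹).map C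
  let P : ℕ × Bool → Matrix (Fin 4) (Fin 4) F := fun l =>
    M.mat (c l.1) * single (if l.2 then 0 else 3) (if l.2 then 0 else 3) 1 * M.mat (c l.1)⁻¹
  have hT : ∀ L : List (ℕ × Bool), Top (L.map A).prod ((2 * s + 4) * L.length) (L.map P).prod := fun L => by
    induction L with
    | nil => simpa using Top.const (1 : Matrix (Fin 4) (Fin 4) F)
    | cons l L ih =>
      simpa [mul_add, add_comm] using (((Top.const _).mul (top_dg F s l.2)).mul (Top.const _)).mul ih
  have hP : ∀ (l : ℕ × Bool) (p : M.Pt), p ≠ c l.1 • M.bp (!l.2) → ∃ k : F, k ≠ 0 ∧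
      P l *ᵥ M.vec p = k • M.vec (c l.1 • M.bp l.2) := fun l p hp => by
    obtain ⟨k1, h1, e1⟩ := (M.smul_eq_iff (c l.1)⁻¹ p _).1 rfl
    obtain ⟨k2, h2, e2⟩ := M.single_vec l.2 (p := (c l.1)⁻¹ • p) (by rwa [Ne, inv_smul_eq_iff])
    obtain ⟨k3, h3, e3⟩ := (M.smul_eq_iff (c l.1) (M.bp l.2) _).1 rfl
    exact ⟨k1 * k2 * k3, by positivity, by
      rw [← mulVec_mulVec, ← mulVec_mulVec, e1, mulVec_smul, e2, mulVec_smul, mulVec_smul, e3, smul_smul, smul_smul]⟩
  have hN : ∀ (L : List (ℕ × Bool)) (l : ℕ × Bool), FreeGroup.IsReduced (l :: L) → (∀ a ∈ l :: L, a.1 < n) →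
      ∃ z, ∃ k : F, k ≠ 0 ∧ ((l :: L).map P).prod *ᵥ z = k • M.vec (c l.1 • M.bp l.2) := fun L => by
    induction L with
    | nil =>
      intro l _ _
      obtain ⟨k, hk, e⟩ := hP l (c l.1 • M.bp l.2) (by rw [hb, hb, Ne, pt_inj]; cases l.2 <;> simp)
      exact ⟨_, k, hk, by simpa using e⟩
    | cons l' L ih =>
      intro l h h'
      rw [FreeGroup.isReduced_cons_cons] at h
      obtain ⟨z, k, hk, e⟩ := ih l' h.2 fun a ha => h' a (List.mem_cons_of_mem _ ha)
      obtain ⟨k', hk', e'⟩ := hP l (c l'.1 • M.bp l'.2) (by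
        rw [hb, hb, Ne, pt_inj]
        rintro ⟨e1, e2⟩
        rw [← h.1 (hx _ (h' l (by simp)) _ (h' l' (by simp)) e1.symm)] at e2
        revert e2; cases l.2 <;> simp)
      exact ⟨z, k * k', by positivity, by rw [List.map_cons, List.prod_cons, ← mulVec_mulVec, e, mulVec_smul, e', smul_smul]⟩
  have hE : ∀ (u : Fˣ) (L : List (ℕ × Bool)), (L.map A).prod.map (eval (u : F)) = (u : F) ^ ((s + 2) * L.length) •
      M.mat (FreeGroup.lift (fun i => c i * M.D (u ^ (s + 2)) * (c i)⁻¹) (FreeGroup.mk L)) := fun u L => by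
    rw [FreeGroup.lift_mk]
    induction L with
    | nil => simp [mat_one]
    | cons l L ih =>
      have e : ∀ B : Matrix (Fin 4) (Fin 4) F, (B.map C).map (eval (u : F)) = B := fun B => by ext; simp
      have e' : ∀ B B' : Matrix (Fin 4) (Fin 4) F[X], (B * B').map (eval (u : F)) = B.map (eval (u : F)) * B'.map (eval (u : F)) :=
        fun B B' => Matrix.map_mul (f := evalRingHom (u : F))
      rw [List.map_cons, List.prod_cons, List.map_cons, List.prod_cons, e', ih, e', e', e, e, M.eval_dg hθ,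
        List.length_cons, mul_add, mul_one, pow_add (u : F) (_ * _), ← smul_smul, mul_smul_comm, mul_smul_comm,
        smul_mul_assoc, smul_mul_assoc, ← mat_mul, ← mat_mul, ← mat_mul]
      cases l.2 <;> simp [mul_assoc]
  by_contra hcon
  push Not at hcon
  obtain ⟨l, L, rfl⟩ := List.exists_cons_of_ne_nil h0
  obtain ⟨z, k, hk, e⟩ := hN L l hL hn
  suffices h : ((l :: L).map P).prod = 0 by
    rw [h, zero_mulVec, eq_comm, smul_eq_zero] at e
    exact e.elim hk (M.vec_ne_zero _)
  ext i j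
  obtain ⟨t1, t2⟩ := hT (l :: L) i j
  have h3 := eq_zero_of_natDegree_lt_card_of_eval_eq_zero (((l :: L).map A).prod i j -
    C ((1 : Matrix (Fin 4) (Fin 4) F) i j) * X ^ ((s + 2) * (l :: L).length)) (ι := Fˣ) Units.val_injective (fun u => by
      have := congrFun (congrFun (hE u (l :: L)) i) j
      rw [hcon, mat_one] at this
      rw [map_apply, Matrix.smul_apply, smul_eq_mul] at this
      rw [eval_sub, this, eval_mul, eval_C, eval_pow, eval_X, mul_comm, sub_self]) (by
      rw [Fintype.card_units]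
      refine ((natDegree_sub_le _ _).trans (max_le t1 ((natDegree_C_mul_X_pow_le _ _).trans ?_))).trans_lt h2
      exact Nat.mul_le_mul_right _ (by omega))
  rw [← t2, sub_eq_zero.1 h3, coeff_C_mul_X_pow, if_neg (by simp; omega)]
  rfl

end Model

end Cfsg.Agent.H15.Sz
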