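import Cfsg.Agent.H15.TI
import Cfsg.Agent.H5.Ind3
import Cfsg.Agent.H4.Char3
import Cfsg.Agent.H8.Basic

/-! Characters induced from self-centralising abelian subgroups. -/

set_option autoImplicit false

namespace Cfsg.Agent.H15

open Cfsg Cfsg.Agent.H4 Cfsg.Agent.H5 Finset
open scoped ComplexConjugate

theorem single_of_sq {I : Type*} {R : Finset I} {v : I → ℤ} (h : ∑ i ∈ R, v i * v i = 1) (d : I → ℤ) :
    ∃ μ ∈ R, (v μ = 1 ∨ v μ = -1) ∧ (∀ i ∈ R, v i ≠ 0 → i = μ) ∧ ∑ i ∈ R, v i * d i = v μ * d μ := by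
  classical
  obtain ⟨μ, a, b⟩ := exists_ne_zero_of_sum_ne_zero (h ▸ one_ne_zero)
  rw [← add_sum_erase _ _ a] at h
  have c := sum_nonneg fun i (_ : i ∈ R.erase μ) => mul_self_nonneg (v i)
  have e := (mul_self_nonneg _).lt_of_ne' b
  have f : ∀ i ∈ R, v i ≠ 0 → i = μ := fun i x y => by_contra fun z => y (mul_self_eq_zero.1
    ((sum_eq_zero_iff_of_nonneg fun i _ => mul_self_nonneg (v i)).1 (by omega) i (mem_erase.2 ⟨z, x⟩)))
  exact ⟨μ, a, mul_self_eq_one_iff.1 (by omega), f, sum_eq_single_of_mem μ a fun i x y => by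
    rw [not_not.1 (mt (f i x) y), zero_mul]⟩

variable {G : Type*} [Group G] [Fintype G] {A : Subgroup G}

omit [Fintype G] in
theorem gen_sub_one (θ : IrrCharacter A) : IsGeneralizedCharacter A (θ.1 - fun _ => 1) := θ.2.isGen.sub isGen_one

/-- the multiplicity of `χ` in the virtual character induced from `θ - 1` -/
noncomputable def cc (θ : IrrCharacter A) (χ : IrrCharacter G) : ℤ :=
  ((isGeneralizedCharacter_indFun A (gen_sub_one θ)).classInner_int χ.2.isGen).choose

theorem cc_eq (θ : IrrCharacter A) (χ : IrrCharacter G) : classInner (indFun A (θ.1 - fun _ => 1)) χ = cc θ χ :=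
  ((isGeneralizedCharacter_indFun A (gen_sub_one θ)).classInner_int χ.2.isGen).choose_spec

theorem cc_eq' [Fintype A] (θ : IrrCharacter A) (χ : IrrCharacter G) :
    (cc θ χ : ℂ) = classInner (θ.1 - fun _ => 1) fun a : A => χ.1 a := by
  rw [← cc_eq, inner_indFun_left _ _ χ.2.isClassFunction]

theorem cc_congr (θ : IrrCharacter A) {χ ψ : IrrCharacter G} (h : ∀ a ∈ A, χ.1 a = ψ.1 a) : cc θ χ = cc θ ψ := by
  have := Fintype.ofFinite A
  rw [← Int.cast_inj (α := ℂ), cc_eq', cc_eq']
  exact congrArg _ (funext fun a => h a a.2)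

theorem sum_cc_cc {B : Subgroup G} (θ : IrrCharacter A) (η : IrrCharacter B) : ((∑ χ, cc θ χ * cc η χ : ℤ) : ℂ) =
    classInner (indFun A (θ.1 - fun _ => 1)) (indFun B (η.1 - fun _ => 1)) := by
  rw [(indFun_isClassFunction _ _).classInner_eq_sum]
  simp [cc_eq]

variable (hA : ∀ u ∈ A, u ≠ 1 → Subgroup.centralizer {u} = A)
include hA

omit [Fintype G] in
theorem comm_of_cent (a b : A) : a * b = b * a := by
  rcases eq_or_ne (b : G) 1 with e | e
  · exact Subtype.ext (by simp [e])
  · exact Subtype.ext (Subgroup.mem_centralizer_singleton_iff.1 ((hA b b.2 e).ge a.2))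

omit [Fintype G] in
theorem irr_one (θ : IrrCharacter A) : θ.1 1 = 1 := θ.2.apply_one_eq_one_of_comm (comm_of_cent hA)

theorem cc_const {θ : IrrCharacter A} (hθ : θ ≠ irrOne A) {χ : IrrCharacter G} {s : ℤ} (h : ∀ a ∈ A, a ≠ 1 → χ.1 a = s) :
    cc θ χ = -s := by
  have := Fintype.ofFinite A
  have e : classInner (θ.1 - fun _ => 1) (fun a : A => χ.1 a) = classInner (θ.1 - fun _ => 1) ((s : ℂ) • fun _ => 1) := by
    simp only [classInner_def]
    refine congrArg _ (sum_congr rfl fun a _ => ?_)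
    rcases eq_or_ne a 1 with rfl | e
    · simp [irr_one hA]
    · simp [h a a.2 (by simpa using e)]
  rw [← Int.cast_inj (α := ℂ), cc_eq', e, classInner_smul_right, classInner_sub_left, classInner_one_one,
    θ.2.classInner_of_ne isIrrCharacter_one fun e => hθ (Subtype.ext e)]
  simp

theorem sum_cc_deg (θ : IrrCharacter A) : ∑ χ, cc θ χ * charDegree χ.1 = 0 := by
  have := (indFun_isClassFunction A (θ.1 - fun _ => 1)).apply_eq_sum 1
  rw [indFun_one] at this
  rw [← Int.cast_inj (α := ℂ)]
  simpa [cc_eq, H8.irr_coe_charDegree, irr_one hA] using this.symm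

theorem card_dvd_deg (χ : IrrCharacter G) {c : ℤ} (h : ∀ θ : IrrCharacter A, θ ≠ irrOne A → cc θ χ = c) :
    (Nat.card A : ℤ) ∣ charDegree χ.1 + c := by
  have := Fintype.ofFinite A
  obtain ⟨n, hn⟩ := isCharacter_one.classInner_nat (χ.2.isCharacter.restrict A)
  have e := classInner_regChar_left fun a : A => χ.1 a
  rw [regChar_eq_sum, classInner_sum_left] at e
  have e' : ∀ θ : IrrCharacter A, classInner (θ.1 1 • θ.1) (fun a : A => χ.1 a) = n + c - if θ = irrOne A then (c : ℂ) else 0 := by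
    intro θ
    rw [irr_one hA, one_smul]
    split_ifs with a
    · rw [a, add_sub_cancel_right]; exact hn
    · rw [← h θ a, cc_eq', classInner_sub_left, hn]; ring
  refine ⟨n + c, Int.cast_injective (α := ℂ) ?_⟩
  simp only [e', sum_sub_distrib, sum_const, card_univ, sum_ite_eq', mem_univ, if_true, OneMemClass.coe_one, H8.irr_conj_one,
    ← Nat.card_eq_fintype_card, card_irr_of_comm (comm_of_cent hA)] at e
  simp [H8.irr_coe_charDegree, ← e, mul_add]

theorem sum_cc_ne {B : Subgroup G} (h : (Nat.card A).Coprime (Nat.card B)) (θ : IrrCharacter A) (η : IrrCharacter B) :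
    ∑ χ, cc θ χ * cc η χ = 0 := by
  have := Fintype.ofFinite B
  rw [← Int.cast_inj (α := ℂ), sum_cc_cc, inner_indFun_right _ _ (indFun_isClassFunction _ _), Int.cast_zero]
  refine (congrArg (classInner · _) (funext fun b : B => indFun_eq_zero_of_forall _ _ fun x hx => ?_)).trans (classInner_zero_left _)
  have e : orderOf (⟨_, hx⟩ : A) = orderOf b := by
    rw [← Subgroup.orderOf_coe, ← Subgroup.orderOf_coe]; exact H8.orderOf_conj' _ _
  rw [orderOf_eq_one_iff.1 (Nat.eq_one_of_dvd_coprimes h (orderOf_dvd_natCard (⟨_, hx⟩ : A)) (e ▸ orderOf_dvd_natCard b))]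
  simp [irr_one hA]

theorem sum_cc {e : ℕ} (he : Nat.card (Subgroup.normalizer (A : Set G)) = e * Nat.card A) {θ η : IrrCharacter A}
    (hθ : θ ≠ irrOne A) (hη : η ≠ irrOne A) : e ≤ ∑ χ, cc θ χ * cc η χ ∧ (θ = η → ∑ χ, cc θ χ * cc η χ = e + 1) := by
  classical
  have := Fintype.ofFinite A
  let N := Subgroup.normalizer (A : Set G)
  let f : N → IrrCharacter A := fun x => ⟨_, θ.2.comp_equiv (A.normalizerMonoidHom x)⟩
  have h1 : (fun a : A => indFun A (θ.1 - fun _ => 1) a) = (Nat.card A : ℂ)⁻¹ • ∑ x : N, ((f x).1 - fun _ => 1) := by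
    funext a
    rw [indFun_apply', Pi.smul_apply, Finset.sum_apply, ← sum_subset (subset_univ (univ.filter (· ∈ N))), sum_subtype _ (p := (· ∈ N))
      (by simp), smul_eq_mul]
    · exact congrArg _ (sum_congr rfl fun x _ => extendByZero_mem _ _ ((Subgroup.mem_normalizer_iff.1 x.2 a).1 a.2))
    intro x _ hx
    by_cases b : x * a * x⁻¹ ∈ A
    · obtain rfl : a = 1 := by_contra fun c => hx (by simpa using isTI_of_centralizer hA x a (by simpa using c) a.2 b)
      rw [extendByZero_mem _ _ b]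
      simpa [sub_eq_zero] using (congrArg θ.1 (Subtype.ext (by simp))).trans (irr_one hA θ)
    · exact extendByZero_not_mem _ _ b
  have h2 : ∀ x : N, f x ≠ irrOne A := fun x a => hθ (Subtype.ext (funext fun b => by
    simpa [f] using congrFun (congrArg Subtype.val a) ((A.normalizerMonoidHom x).symm b)))
  have h3 : (Nat.card A : ℤ) * ∑ χ, cc θ χ * cc η χ = Nat.card N + #{x | f x = η} := by
    rw [← Int.cast_inj (α := ℂ), Int.cast_mul, sum_cc_cc, inner_indFun_right _ _ (indFun_isClassFunction _ _), h1,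
      classInner_smul_left, Int.cast_natCast, mul_inv_cancel_left₀ natCard_ne_zero', classInner_sum_left]
    simp only [classInner_sub_left, classInner_sub_right, irr_classInner, classInner_one_one,
      fun x => (f x).2.classInner_of_ne isIrrCharacter_one fun e => h2 x (Subtype.ext e),
      isIrrCharacter_one.classInner_of_ne η.2 fun e => hη (Subtype.ext e.symm)]
    simp [sum_add_distrib, add_comm]
  have h0 : (0 : ℤ) < Nat.card A := Int.natCast_pos.2 Nat.card_pos
  rw [he, Nat.cast_mul] at h3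
  refine ⟨by nlinarith, ?_⟩
  rintro rfl
  have h4 : ∀ x : N, f x = θ ↔ x ∈ A.subgroupOf N := fun x => ⟨fun a => by_contra fun b => hθ (Subtype.ext (funext fun c => ?_)),
    fun a => Subtype.ext (funext fun b => θ.2.isClassFunction b ⟨x, a⟩)⟩
  · rw [show #{x | f x = θ} = Nat.card A by
      rw [← Nat.card_congr (Subgroup.subgroupOfEquivOfLe A.le_normalizer).toEquiv, ← Fintype.card_subtype, ← Nat.card_eq_fintype_card]
      exact Nat.card_congr (Equiv.subtypeEquivRight h4)] at h3
    exact mul_left_cancel₀ h0.ne' (by linarith)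
  obtain ⟨u, rfl⟩ := MonoidHom.FixedPointFree.commutatorMap_surjective (G := A) (φ := A.normalizerMonoidHom x) (fun u hu => by_contra fun d =>
    b ((hA u u.2 (by simpa using d)).le (Subgroup.mem_centralizer_singleton_iff.2
      (mul_inv_eq_iff_eq_mul.1 (congrArg Subtype.val hu))))) c
  obtain ⟨l, hl⟩ := θ.2.exists_linear_of_comm (comm_of_cent hA)
  have := congrFun (congrArg Subtype.val a) u
  simp only [f, hl, Units.val_inj] at this
  simp [hl, this, irrOne]

end Cfsg.Agent.H15
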