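import Cfsg.Agent.H15.SzCh1
import Cfsg.Agent.H15.Sz12
import Cfsg.Agent.H4.PermChar
import Cfsg.Agent.H8.Ord1
import Cfsg.Prelude.Def_DegreeGraph

/-! The degrees of the irreducible characters of the Suzuki groups. -/

set_option autoImplicit false

namespace Cfsg.Agent.H15

open Cfsg Cfsg.Agent.H4 Cfsg.Agent.H5 Finset MulAction
open scoped ComplexConjugate

theorem deg_arith {q r a b d ε : ℤ} (hr : r ^ 2 = 2 * q) (h4 : 4 ≤ r) (ha : a = q + r + 1) (hb : b = q - r + 1) (hab : IsCoprime a b)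
    (hq : IsCoprime (a * b) (q - 1)) (h0 : 0 < d) (h1 : d ^ 2 ≤ q ^ 2 * (q ^ 2 + 1) * (q - 1)) (h2 : q - 1 ∣ d) (h3 : a ∣ d + ε)
    (h5 : b ∣ d - ε) (hε : ε = 0 ∨ ε = 1 ∨ ε = -1) : ε = -1 ∧ 2 * d = (q - 1) * r := by
  obtain ⟨w, rfl⟩ := h2
  have e : a * b = q ^ 2 + 1 := by rw [ha, hb]; linear_combination -hr
  have h6 : 8 ≤ q := by nlinarith
  have h7 : 0 < w := (mul_pos_iff_of_pos_left (by omega)).1 h0
  have h8 : 2 * r ≤ q := by nlinarith
  obtain ⟨k, hk⟩ : a * b ∣ 2 * w + ε * r := by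
    refine hq.dvd_of_dvd_mul_left (hab.mul_dvd ?_ ?_)
    · obtain ⟨x, hx⟩ := h3
      exact ⟨2 * x + ε * (r - 2), by rw [ha] at hx ⊢; linear_combination 2 * hx - ε * hr⟩
    · obtain ⟨x, hx⟩ := h5
      exact ⟨2 * x + ε * (r + 2), by rw [hb] at hx ⊢; linear_combination 2 * hx + ε * hr⟩
  have h9 : (q - 1) * w ^ 2 ≤ q ^ 2 * (q ^ 2 + 1) := le_of_mul_le_mul_left (a := q - 1) (by linarith) (by omega)
  have h10 : -r ≤ ε * r ∧ ε * r ≤ r := by rcases hε with rfl | rfl | rfl <;> omega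
  rw [e] at hk
  rcases lt_trichotomy k 0 with c | rfl | c
  · nlinarith
  · rcases hε with rfl | rfl | rfl
    exacts [by omega, by omega, ⟨rfl, by linear_combination (q - 1) * hk⟩]
  · have c1 : q * (q - 1) ≤ 2 * w := by nlinarith
    have c2 : (q * (q - 1)) ^ 2 ≤ (2 * w) ^ 2 := pow_le_pow_left₀ (by nlinarith) c1 2
    have c3 : 7 * w ^ 2 ≤ q ^ 2 * (q ^ 2 + 1) := le_trans (by nlinarith) h9
    nlinarith [mul_pos (pow_pos (show 0 < q by omega) 2) (show 0 < 3 * q ^ 2 - 14 * q + 3 by nlinarith)]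

theorem vec_arith {I : Type*} {R : Finset I} {v v' : I → ℤ} {w w' : ℤ} (h : 2 * (w * w) + ∑ i ∈ R, v i * v i = 3) (h0 : w ≠ 0)
    (h' : 2 * (w' * w') + ∑ i ∈ R, v' i * v' i = 3) : (w = 1 ∨ w = -1) ∧ (2 ≤ 2 * (w * w') + ∑ i ∈ R, v i * v' i → w' = w) ∧
      (2 * (w * w') + ∑ i ∈ R, v i * v' i = -2 → w' = -w) := by
  have a := sum_nonneg fun i (_ : i ∈ R) => mul_self_nonneg (v i)
  have a' := sum_nonneg fun i (_ : i ∈ R) => mul_self_nonneg (v' i)
  have b : w = 1 ∨ w = -1 := mul_self_eq_one_iff.1 (by have := mul_self_pos.2 h0; omega)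
  have b' : -1 ≤ w' ∧ w' ≤ 1 := ⟨by nlinarith, by nlinarith⟩
  have c := sum_mul_sq_le_sq_mul_sq R v v'
  simp only [sq] at c
  rw [show ∑ i ∈ R, v i * v i = 1 by rcases b with rfl | rfl <;> omega] at c
  have d : -1 ≤ ∑ i ∈ R, v i * v' i ∧ ∑ i ∈ R, v i * v' i ≤ 1 := ⟨by nlinarith [mul_self_nonneg w'], by nlinarith [mul_self_nonneg w']⟩
  refine ⟨b, ?_, ?_⟩ <;> rcases b with rfl | rfl <;> omega

namespace Sz.Model

variable {G : Type*} [Group G] [Fintype G] {F : Type*} [Field F] [CharP F 2] [Finite F] (M : Model G F)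

theorem exists_st : ∃ s : IrrCharacter G, charDegree s.1 = Nat.card F ^ 2 ∧ (∀ a ∈ M.D.range, a ≠ 1 → s.1 a = (1 : ℤ)) ∧
    (∀ a, M.Fpf a → s.1 a = (-1 : ℤ)) ∧ ∀ a, s.1 a = s.1 a⁻¹ := by
  have : Nontrivial M.Pt := ⟨_, _, M.pt_ne_inf 0 0⟩
  have := isPretransitive_of_is_two_pretransitive (h2 := M.two_trans)
  refine ⟨⟨_, (isIrr_permChar_sub_one_iff M.Pt).2 M.two_trans⟩, H8.charDegree_eq_of_apply_one (by simp [permChar_one, M.card_Pt]),
    ?_, fun a h => by simp [permChar, show fixedBy M.Pt a = ∅ from Set.eq_empty_of_forall_notMem h], fun a => by simp [permChar]⟩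
  rintro _ ⟨a, rfl⟩ h
  have : fixedBy M.Pt (M.D a) = {M.pt 0 0, M.inf} := Set.ext fun p => ⟨fun e => (M.fix_D (M.D_ne_one.1 h) e).symm,
    fun e => e.elim (· ▸ M.D_smul_zero a) (· ▸ M.D_smul_inf a)⟩
  simp [permChar, this, Set.ncard_pair (M.pt_ne_inf 0 0)]
  norm_num

set_option maxHeartbeats 1600000 in
include M in
theorem degrees {m : ℕ} (hm : 1 ≤ m) (hq : Nat.card F = 2 ^ (2 * m + 1)) {q a b : ℕ} (hq' : q = 2 ^ (2 * m + 1))
    (ha : a = q + 2 ^ (m + 1) + 1) (hb : b = q - 2 ^ (m + 1) + 1) :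
    charDegrees G = {1, q ^ 2, q ^ 2 + 1, (q - 1) * a, (q - 1) * b, (q - 1) * 2 ^ m} := by
  classical
  obtain ⟨g, h, hg, hh, c1, c2, n1, n2, -⟩ := M.tori hm hq
  have c0 := M.card_D
  have n0 := M.card_normalizer_D
  have cG := M.card_G
  rw [← c0] at n0
  have hab : a * b = q ^ 2 + 1 := by rw [ha, hb, hq']; exact torus_mul
  have co : a.Coprime b := by rw [ha, hb, hq']; exact torus_coprime
  rw [← hq', ← ha] at c1
  rw [← hq', ← hb] at c2
  rw [hq, ← hq'] at c0 cG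
  obtain ⟨_, r, rfl, hr, r1, r2, r3, -, r4⟩ := torus_arith hm
  rw [← hq'] at r1 r3 r4
  rw [hr] at ha hb
  have re := fun g => M.real (g := g) hm hq
  obtain ⟨k, hk⟩ : ∃ k, 2 ^ m = k := ⟨_, rfl⟩
  rw [pow_succ, hk] at hr
  rw [hk]
  obtain ⟨s, s1, s2, s3, s4⟩ := M.exists_st
  rw [hq, ← hq'] at s1
  clear hq hq' hk hm
  have q1 : 1 ≤ q := by omega
  have co' : (a * b).Coprime (q - 1) := by
    obtain ⟨k, rfl⟩ : ∃ k, q = k + 1 := ⟨q - 1, by omega⟩
    rw [hab, show (k + 1) ^ 2 + 1 = 2 + (k + 2) * k by ring, Nat.add_sub_cancel, Nat.coprime_add_mul_right_left, Nat.coprime_two_left]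
    exact Nat.not_even_iff_odd.1 (Nat.even_add_one.1 r4)
  have A0 : ∀ u ∈ M.D.range, u ≠ 1 → Subgroup.centralizer {u} = M.D.range := M.torus_D.cent
  have A1 := hg.torus.cent
  have A2 := hh.torus.cent
  have o1 : charDegree (irrOne G).1 = 1 := H8.charDegree_one
  have f : ∀ {g}, M.Fpf g → ∀ a ∈ Subgroup.centralizer {g}, a ≠ 1 → s.1 a = (-1 : ℤ) := fun x a y z =>
    s3 a (x.of_commute z (Subgroup.mem_centralizer_singleton_iff.1 y))
  have so : s ≠ irrOne G := by rintro rfl; rw [o1] at s1; nlinarith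
  have o : ∀ {A : Subgroup G}, (∀ u ∈ A, u ≠ 1 → Subgroup.centralizer {u} = A) → ∀ θ : IrrCharacter A, θ ≠ irrOne A →
    cc θ (irrOne G) = -1 := fun h θ e => cc_const h e fun _ _ _ => Int.cast_one.symm
  have ex : ∀ {A : Subgroup G}, (∀ u ∈ A, u ≠ 1 → Subgroup.centralizer {u} = A) → 1 < Nat.card A →
      ∃ θ : IrrCharacter A, θ ≠ irrOne A := fun h e =>
    have := Finite.one_lt_card_iff_nontrivial.1 (card_irr_of_comm (comm_of_cent h) ▸ e)
    exists_ne _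
  have sp : ∀ v : IrrCharacter G → ℤ, ∑ χ, v χ = v (irrOne G) + v s + ∑ χ ∈ (univ.erase (irrOne G)).erase s, v χ := fun v => by
    rw [add_assoc, add_sum_erase _ _ (mem_erase.2 ⟨so, mem_univ _⟩), add_sum_erase _ _ (mem_univ _)]
  have d0 : ∀ θ : IrrCharacter M.D.range, θ ≠ irrOne _ → ∃ μ ∈ (univ.erase (irrOne G)).erase s, charDegree μ.1 = q ^ 2 + 1 ∧
      ∀ χ ∈ (univ.erase (irrOne G)).erase s, cc θ χ ≠ 0 → χ = μ := fun θ e => by
    have x := (sum_cc A0 n0 e e).2 rfl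
    have y := sum_cc_deg A0 θ
    rw [sp, o A0 θ e, cc_const A0 e s2] at x y
    obtain ⟨μ, a1, a2, a3, a4⟩ := single_of_sq (R := (univ.erase (irrOne G)).erase s) (v := cc θ) (by omega) fun χ => charDegree χ.1
    rw [a4, s1, o1] at y
    refine ⟨μ, a1, ?_, a3⟩
    rcases a2 with e | e <;> rw [e] at y <;> push_cast at y <;> zify <;> nlinarith
  obtain ⟨W, hW⟩ : ∃ W : IrrCharacter G, W.1 (M.S 1 0) ≠ W.1 (M.S 1 0)⁻¹ := not_forall.1 (mt (isConj_iff_forall_irr _ _).2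
    fun e => (M.isConj_four (M.orderOf_four (M.S_mem 1 0) (by simp [S_mem_Z]))).elim (·.2 e) (·.2 (IsConj.refl _)))
  let W' : IrrCharacter G := ⟨_, W.2.conj⟩
  have w1 : ∀ χ : IrrCharacter G, (χ = W ∨ χ = W') → ∀ {A : Subgroup G}, Odd (Nat.card A) → ∀ θ : IrrCharacter A, cc θ χ = cc θ W := by
    rintro _ (rfl | rfl) A x θ
    · rfl
    refine cc_congr θ fun a y => (H8.irr_inv W a).symm.trans ?_
    rcases eq_or_ne a 1 with rfl | z
    · rw [inv_one]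
    · exact (W.2.isClassFunction.of_isConj (re a z (x.of_dvd_nat (A.orderOf_dvd_natCard y)))).symm
  have w2 : W' ≠ W := fun e => hW ((congrFun (congrArg Subtype.val e) _).symm.trans (H8.irr_inv W _).symm)
  have w3 : ∀ χ : IrrCharacter G, χ.1 (M.S 1 0) ≠ χ.1 (M.S 1 0)⁻¹ → χ ∈ (univ.erase (irrOne G)).erase s := fun χ e =>
    mem_erase.2 ⟨by rintro rfl; exact e (s4 _), mem_erase.2 ⟨by rintro rfl; exact e rfl, mem_univ _⟩⟩
  have w4 := w3 W hW
  have w5 := w3 W' fun e => hW (star_injective e)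
  have od : Odd (q - 1) ∧ Odd a ∧ Odd b := by
    simp only [Nat.even_iff, Nat.odd_iff] at r4 ⊢; omega
  have w0 : ∀ θ : IrrCharacter M.D.range, θ ≠ irrOne _ → cc θ W = 0 := fun θ e => by_contra fun x => by
    obtain ⟨μ, -, -, y⟩ := d0 θ e
    exact w2 ((y _ w5 (w1 _ (Or.inr rfl) (c0 ▸ od.1) θ ▸ x)).trans (y _ w4 x).symm)
  have K : ∀ χ : IrrCharacter G, (∀ θ : IrrCharacter M.D.range, θ ≠ irrOne _ → cc θ χ = 0) → ∀ ε : ℤ, ε = 0 ∨ ε = 1 ∨ ε = -1 →
      (∀ θ : IrrCharacter (Subgroup.centralizer {g}), θ ≠ irrOne _ → cc θ χ = ε) →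
      (∀ θ : IrrCharacter (Subgroup.centralizer {h}), θ ≠ irrOne _ → cc θ χ = -ε) →
      ε = -1 ∧ 2 * (charDegree χ.1 : ℤ) = (q - 1) * r := fun χ x ε e y z => by
    have x := card_dvd_deg A0 χ x
    have y := card_dvd_deg A1 χ y
    have z := card_dvd_deg A2 χ z
    have u := H8.charDegree_sq_le_card χ.2
    rw [c0, add_zero, Nat.cast_sub q1] at x
    rw [cG] at u
    zify [q1] at u
    exact deg_arith (by exact_mod_cast r1) (by exact_mod_cast r2) (by omega) (by omega) (Nat.isCoprime_iff_coprime.2 co)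
      (by simpa [q1] using Nat.isCoprime_iff_coprime.2 co') (Int.natCast_pos.2 (H8.irr_charDegree_pos χ)) u x (c1 ▸ y) (c2 ▸ z) e
  let R := (((univ.erase (irrOne G)).erase s).erase W).erase W'
  have sp' : ∀ v : IrrCharacter G → ℤ, ∑ χ, v χ = v (irrOne G) + v s + (v W + (v W' + ∑ χ ∈ R, v χ)) := fun v => by
    rw [sp, add_sum_erase _ _ (mem_erase.2 ⟨w2, w5⟩), add_sum_erase _ _ w4]
  have S : ∀ {g h : G}, M.Fpf g → M.Fpf h → Odd (Nat.card (Subgroup.centralizer {g})) → Odd (Nat.card (Subgroup.centralizer {h})) →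
      ∀ θ : IrrCharacter (Subgroup.centralizer {g}), θ ≠ irrOne _ → ∀ η : IrrCharacter (Subgroup.centralizer {h}), η ≠ irrOne _ →
      ∑ χ, cc θ χ * cc η χ = 2 + (2 * (cc θ W * cc η W) + ∑ χ ∈ R, cc θ χ * cc η χ) := fun x y z u θ e η e' => by
    rw [sp', o x.torus.cent θ e, o y.torus.cent η e', cc_const x.torus.cent e (f x), cc_const y.torus.cent e' (f y),
      w1 _ (Or.inr rfl) z, w1 _ (Or.inr rfl) u]
    ring
  have T : ∀ {g h : G}, M.Fpf g → M.Fpf h → Odd (Nat.card (Subgroup.centralizer {g})) → Odd (Nat.card (Subgroup.centralizer {h})) →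
      (Nat.card (Subgroup.centralizer {g})).Coprime (Nat.card (Subgroup.centralizer {h})) →
      Nat.card (Subgroup.normalizer (Subgroup.centralizer {g} : Set G)) = 4 * Nat.card (Subgroup.centralizer {g}) →
      Nat.card (Subgroup.normalizer (Subgroup.centralizer {h} : Set G)) = 4 * Nat.card (Subgroup.centralizer {h}) →
      ∀ θ : IrrCharacter (Subgroup.centralizer {g}), θ ≠ irrOne _ → cc θ W ≠ 0 → (cc θ W = 1 ∨ cc θ W = -1) ∧
        (∀ η : IrrCharacter (Subgroup.centralizer {g}), η ≠ irrOne _ → cc η W = cc θ W) ∧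
        ∀ η : IrrCharacter (Subgroup.centralizer {h}), η ≠ irrOne _ → cc η W = -cc θ W := fun x y z u co n n' θ e e0 => by
    have b0 := (sum_cc x.torus.cent n e e).2 rfl
    rw [S x x z z θ e θ e] at b0
    refine ⟨(vec_arith (R := R) (v := cc θ) (v' := cc θ) (w' := cc θ W) (by omega) e0 (by omega)).1, fun η e' => ?_, fun η e' => ?_⟩
    · have b1 := sum_cc x.torus.cent n e e'
      have b2 := (sum_cc x.torus.cent n e' e').2 rfl
      rw [S x x z z _ e _ e'] at b1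
      rw [S x x z z _ e' _ e'] at b2
      exact (vec_arith (R := R) (v := cc θ) (v' := cc η) (by omega) e0 (by omega)).2.1 (by omega)
    · have b1 := sum_cc_ne x.torus.cent co θ η
      have b2 := (sum_cc y.torus.cent n' e' e').2 rfl
      rw [S x y z u _ e _ e'] at b1
      rw [S y y u u _ e' _ e'] at b2
      exact (vec_arith (R := R) (v := cc θ) (v' := cc η) (by omega) e0 (by omega)).2.2 (by omega)
  have o1' := c1 ▸ od.2.1
  have o2' := c2 ▸ od.2.2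
  obtain ⟨ε, e0, e1, e2⟩ : ∃ ε : ℤ, (ε = 0 ∨ ε = 1 ∨ ε = -1) ∧
      (∀ θ : IrrCharacter (Subgroup.centralizer {g}), θ ≠ irrOne _ → cc θ W = ε) ∧
      ∀ θ : IrrCharacter (Subgroup.centralizer {h}), θ ≠ irrOne _ → cc θ W = -ε := by
    by_cases x : ∀ θ : IrrCharacter (Subgroup.centralizer {g}), θ ≠ irrOne _ → cc θ W = 0
    · by_cases y : ∀ θ : IrrCharacter (Subgroup.centralizer {h}), θ ≠ irrOne _ → cc θ W = 0
      · exact ⟨0, Or.inl rfl, x, y⟩
      push Not at y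
      obtain ⟨θ, y1, y2⟩ := y
      have := T hh hg o2' o1' (c1 ▸ c2 ▸ co.symm) n2 n1 θ y1 y2
      exact ⟨_, by omega, this.2.2, by simpa using this.2.1⟩
    push Not at x
    obtain ⟨θ, y1, y2⟩ := x
    have := T hg hh o1' o2' (c1 ▸ c2 ▸ co) n1 n2 θ y1 y2
    exact ⟨_, Or.inr this.1, this.2⟩
  obtain ⟨rfl, dW⟩ := K W w0 ε e0 e1 e2
  have dW' : charDegree W'.1 = charDegree W.1 := H8.charDegree_eq_of_apply_one ((H8.irr_conj_one W).trans (H8.irr_coe_charDegree W).symm)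
  have d1 : ∀ {g : G}, M.Fpf g → Odd (Nat.card (Subgroup.centralizer {g})) →
      Nat.card (Subgroup.normalizer (Subgroup.centralizer {g} : Set G)) = 4 * Nat.card (Subgroup.centralizer {g}) →
      ∀ θ : IrrCharacter (Subgroup.centralizer {g}), θ ≠ irrOne _ → cc θ W = 1 ∨ cc θ W = -1 → ∃ μ ∈ R,
        (charDegree μ.1 : ℤ) = (q - 1) * (q + 1 + cc θ W * r) ∧ ∀ χ ∈ R, cc θ χ ≠ 0 → χ = μ := fun x z n θ e e' => by
    have b0 := (sum_cc x.torus.cent n e e).2 rfl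
    have y := sum_cc_deg x.torus.cent θ
    rw [S x x z z θ e θ e] at b0
    obtain ⟨μ, a1, a2, a3, a4⟩ := single_of_sq (R := R) (v := cc θ) (by rcases e' with e' | e' <;> rw [e'] at b0 <;> omega)
      fun χ => charDegree χ.1
    rw [sp', a4, s1, o1, o x.torus.cent θ e, cc_const x.torus.cent e (f x), w1 _ (Or.inr rfl) z, dW'] at y
    refine ⟨μ, a1, ?_, a3⟩
    have : (0 : ℤ) < (q - 1) * (q + 1 + cc θ W * r) := mul_pos (by omega) (by rcases e' with e' | e' <;> rw [e'] <;> omega)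
    rcases a2 with e | e <;> rw [e] at y <;> push_cast at y
    · have : (charDegree μ.1 : ℤ) = -((q - 1) * (q + 1 + cc θ W * r)) := by linear_combination y - cc θ W * dW
      omega
    · linear_combination -y + cc θ W * dW
  have dW2 : charDegree W.1 = (q - 1) * k := by
    zify [q1]
    rw [← hr] at dW
    exact mul_left_cancel₀ two_ne_zero (by rw [dW]; push_cast; ring)
  have d2 : ∀ θ : IrrCharacter (Subgroup.centralizer {g}), θ ≠ irrOne _ → ∃ μ ∈ R, charDegree μ.1 = (q - 1) * b ∧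
      ∀ χ ∈ R, cc θ χ ≠ 0 → χ = μ := fun θ e => (d1 hg o1' n1 θ e (Or.inr (e1 θ e))).imp fun μ x => ⟨x.1, by
    zify [q1]; rw [x.2.1, e1 θ e]; congr 1; omega, x.2.2⟩
  have d3 : ∀ θ : IrrCharacter (Subgroup.centralizer {h}), θ ≠ irrOne _ → ∃ μ ∈ R, charDegree μ.1 = (q - 1) * a ∧
      ∀ χ ∈ R, cc θ χ ≠ 0 → χ = μ := fun θ e => (d1 hh o2' n2 θ e (Or.inl (e2 θ e))).imp fun μ x => ⟨x.1, by
    zify [q1]; rw [x.2.1, e2 θ e]; congr 1; omega, x.2.2⟩
  refine Set.Subset.antisymm ?_ ?_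
  · rintro _ ⟨χ, rfl⟩
    by_contra x
    simp only [Set.mem_insert_iff, Set.mem_singleton_iff, not_or] at x
    obtain ⟨x1, x2, x3, x4, x5, x6⟩ := x
    have y : χ ∈ (univ.erase (irrOne G)).erase s := mem_erase.2 ⟨by rintro rfl; exact x2 s1, mem_erase.2 ⟨by rintro rfl; exact x1 o1, mem_univ _⟩⟩
    have z : χ ∈ R := mem_erase.2 ⟨by rintro rfl; exact x6 (dW'.trans dW2), mem_erase.2 ⟨by rintro rfl; exact x6 dW2, y⟩⟩
    exact absurd (K χ (fun θ e => by_contra fun u => (d0 θ e).elim fun μ v => x3 (v.2.2 χ y u ▸ v.2.1)) 0 (Or.inl rfl)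
      (fun θ e => by_contra fun u => (d2 θ e).elim fun μ v => x5 (v.2.2 χ z u ▸ v.2.1))
      fun θ e => by_contra fun u => (d3 θ e).elim fun μ v => x4 (v.2.2 χ z u ▸ v.2.1)).1 (by decide)
  · obtain ⟨θ0, t0⟩ := ex A0 (by omega)
    obtain ⟨θ1, t1⟩ := ex A1 (by omega)
    obtain ⟨θ2, t2⟩ := ex A2 (by omega)
    simp only [Set.insert_subset_iff, Set.singleton_subset_iff]
    exact ⟨⟨_, o1⟩, ⟨_, s1⟩, (d0 θ0 t0).imp fun _ x => x.2.1, (d3 θ2 t2).imp fun _ x => x.2.1, (d2 θ1 t1).imp fun _ x => x.2.1, _, dW2⟩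

end Sz.Model

end Cfsg.Agent.H15
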